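import Mathlib

/-!
Binary coset actions: the three-point obstruction, restriction to an intermediate subgroup, transport,
and a criterion for binarity.
-/

set_option autoImplicit false

namespace Cfsg.Agent.Lib.SuzBinary

variable {G : Type*} [Group G]

/-- The action on the cosets of `H` has relational complexity at most two. -/
def Binary (H : Subgroup G) : Prop :=
  ∀ (n : ℕ) (I J : Fin n → G ⧸ H), 2 ≤ n →
    (∀ i j : Fin n, i ≠ j → ∃ g : G, g • I i = J i ∧ g • I j = J j) → ∃ g : G, ∀ i, g • I i = J i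

/-- Translation of coset equations. -/
theorem smul_coset_eq {H : Subgroup G} {g x y : G} :
    g • (x : G ⧸ H) = (y : G ⧸ H) ↔ y⁻¹ * g * x ∈ H := by
  rw [MulAction.Quotient.smul_coe, eq_comm, QuotientGroup.eq, smul_eq_mul, mul_assoc]

/-- The obstruction on three points `H`, `xH`, `zH`. -/
theorem not_binary_of_witness {H : Subgroup G} {h x z a : G} (hh : h ∈ H) (ha : x⁻¹ * a * x ∈ H)
    (hb : z⁻¹ * (a⁻¹ * h) * z ∈ H)
    (hno : ∀ k ∈ H, x⁻¹ * k * x ∈ H → z⁻¹ * (k⁻¹ * h) * z ∉ H) : ¬ Binary H := by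
  intro hB
  obtain ⟨g, hg⟩ := hB 3 ![((1 : G) : G ⧸ H), (x : G ⧸ H), (z : G ⧸ H)]
    ![((1 : G) : G ⧸ H), (x : G ⧸ H), ((h * z : G) : G ⧸ H)] (by norm_num) (by
      intro i j hij
      have e1 : h • ((1 : G) : G ⧸ H) = ((1 : G) : G ⧸ H) := smul_coset_eq.2 (by simpa using hh)
      have e2 : h • (z : G ⧸ H) = ((h * z : G) : G ⧸ H) := rfl
      have e3 : a • (x : G ⧸ H) = (x : G ⧸ H) := smul_coset_eq.2 ha
      have e4 : a • (z : G ⧸ H) = ((h * z : G) : G ⧸ H) := smul_coset_eq.2 (by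
        rw [show (h * z)⁻¹ * a * z = (z⁻¹ * (a⁻¹ * h) * z)⁻¹ by group]
        exact inv_mem hb)
      fin_cases i <;> fin_cases j <;> simp [-MulAction.Quotient.smul_coe, -MulAction.Quotient.smul_mk] at hij ⊢
      · exact ⟨1, by simp⟩
      · exact ⟨h, e1, e2⟩
      · exact ⟨1, by simp⟩
      · exact ⟨a, e3, e4⟩
      · exact ⟨h, e2, e1⟩
      · exact ⟨a, e4, e3⟩)
  have h0 := smul_coset_eq.1 (hg 0)
  have h1 := smul_coset_eq.1 (hg 1)
  have h2 := smul_coset_eq.1 (hg 2)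
  simp only [inv_one, one_mul, mul_one] at h0
  refine hno g h0 h1 ?_
  rw [show z⁻¹ * (g⁻¹ * h) * z = ((h * z)⁻¹ * g * z)⁻¹ by group]
  exact inv_mem h2

/-- Binarity passes to an intermediate subgroup. -/
theorem binary_subgroupOf {H S : Subgroup G} (hHS : H ≤ S) (hB : Binary H) : Binary (H.subgroupOf S) := by
  intro n I J hn hp
  obtain ⟨g, hg⟩ := hB n (fun i => (((I i).out : S) : G)) (fun i => (((J i).out : S) : G)) hn (by
    intro i j hij
    obtain ⟨g, hi, hj⟩ := hp i j hij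
    refine ⟨(g : G), ?_, ?_⟩
    · rw [← QuotientGroup.out_eq' (I i), ← QuotientGroup.out_eq' (J i), smul_coset_eq,
        Subgroup.mem_subgroupOf] at hi
      exact smul_coset_eq.2 (by simpa using hi)
    · rw [← QuotientGroup.out_eq' (I j), ← QuotientGroup.out_eq' (J j), smul_coset_eq,
        Subgroup.mem_subgroupOf] at hj
      exact smul_coset_eq.2 (by simpa using hj))
  have h0 := smul_coset_eq.1 (hg ⟨0, by omega⟩)
  set s := ((I ⟨0, by omega⟩).out : S)
  set t := ((J ⟨0, by omega⟩).out : S)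
  have hgS : g ∈ S := by
    have := mul_mem (mul_mem t.2 (hHS h0)) (inv_mem s.2)
    simpa [mul_assoc] using this
  refine ⟨⟨g, hgS⟩, fun i => ?_⟩
  rw [← QuotientGroup.out_eq' (I i), ← QuotientGroup.out_eq' (J i), smul_coset_eq, Subgroup.mem_subgroupOf]
  simpa using smul_coset_eq.1 (hg i)

/-- Binarity is preserved by isomorphisms. -/
theorem binary_map {G' : Type*} [Group G'] (e : G ≃* G') {H : Subgroup G} (hB : Binary H) :
    Binary (H.map e.toMonoidHom) := by
  intro n I J hn hp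
  have key : ∀ (g : G') (x y : G' ⧸ H.map e.toMonoidHom), g • x = y ↔
      e.symm g • ((e.symm x.out : G) : G ⧸ H) = ((e.symm y.out : G) : G ⧸ H) := by
    intro g x y
    conv_lhs => rw [← QuotientGroup.out_eq' x, ← QuotientGroup.out_eq' y, smul_coset_eq,
      Subgroup.mem_map_equiv]
    rw [smul_coset_eq, map_mul, map_mul, map_inv]
  obtain ⟨g, hg⟩ := hB n (fun i => ((e.symm (I i).out : G) : G ⧸ H)) (fun i => ((e.symm (J i).out : G) : G ⧸ H)) hn
    (fun i j hij => by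
      obtain ⟨g, hi, hj⟩ := hp i j hij
      exact ⟨e.symm g, (key _ _ _).1 hi, (key _ _ _).1 hj⟩)
  exact ⟨e g, fun i => (key _ _ _).2 (by rw [e.symm_apply_apply]; exact hg i)⟩

theorem binary_map_iff {G' : Type*} [Group G'] (e : G ≃* G') {H : Subgroup G} :
    Binary (H.map e.toMonoidHom) ↔ Binary H := by
  refine ⟨fun h => ?_, binary_map e⟩
  have := binary_map e.symm h
  rwa [Subgroup.map_map, show e.symm.toMonoidHom.comp e.toMonoidHom = MonoidHom.id G from
    MonoidHom.ext fun x => e.symm_apply_apply x, Subgroup.map_id] at this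

/-- A subgroup of exponent two whose non-trivial elements fix only the base point, normalised by the
stabiliser of the base point, gives a binary action. -/
theorem binary_of_fixing {Ω : Type*} [MulAction G Ω] (α : Ω) {Z : Subgroup G}
    (h2 : ∀ a ∈ Z, a * a = 1) (hα : ∀ a ∈ Z, a • α = α)
    (hfix : ∀ a ∈ Z, a ≠ 1 → ∀ o : Ω, a • o = o → o = α)
    (hnorm : ∀ g : G, g • α = α → ∀ a ∈ Z, g * a * g⁻¹ ∈ Z) : Binary Z := by
  intro n I J hn hp
  set r : Fin n → G := fun i => (I i).out with hr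
  have hrI : ∀ i, (r i : G ⧸ Z) = I i := fun i => QuotientGroup.out_eq' _
  have hst : ∀ (g : G) i, g • I i = I i ↔ (r i)⁻¹ * g * r i ∈ Z := fun g i => by
    rw [← hrI, smul_coset_eq]
  have hinv : ∀ u : G, ∀ i, (r i)⁻¹ * u * r i ∈ Z → u * u = 1 := by
    intro u i hu
    have h := h2 _ hu
    rw [show (r i)⁻¹ * u * r i * ((r i)⁻¹ * u * r i) = (r i)⁻¹ * (u * u) * r i by group] at h
    simpa [mul_eq_one_iff_eq_inv, mul_assoc] using congrArg (fun t => r i * t * (r i)⁻¹) h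
  have hpt : ∀ u : G, ∀ i, (r i)⁻¹ * u * r i ∈ Z → u • (r i • α) = r i • α ∧
      (u ≠ 1 → ∀ o, u • o = o → o = r i • α) := by
    intro u i hu
    refine ⟨?_, fun h1 o ho => ?_⟩
    · have := hα _ hu
      rw [mul_smul, mul_smul, inv_smul_eq_iff] at this
      exact this
    · have := hfix _ hu (fun e => h1 (by simpa [mul_assoc] using congrArg (fun t => r i * t * (r i)⁻¹) e))
        ((r i)⁻¹ • o) (by rw [mul_smul, mul_smul, smul_inv_smul, ho])
      rwa [inv_smul_eq_iff] at this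
  have hsame : ∀ i j, r i • α = r j • α → ∀ u : G, u • I i = I i → u • I j = I j := by
    intro i j e u hu
    rw [hst] at hu ⊢
    have h : ((r j)⁻¹ * r i) • α = α := by rw [mul_smul, e, inv_smul_smul]
    have := hnorm _ h _ hu
    rwa [show (r j)⁻¹ * r i * ((r i)⁻¹ * u * r i) * ((r j)⁻¹ * r i)⁻¹ = (r j)⁻¹ * u * r j by group] at this
  -- reduce to a tuple agreeing on two chosen indices
  suffices key : ∀ i0 j0 : Fin n, i0 ≠ j0 → (r i0 • α ≠ r j0 • α ∨ ∀ i j, r i • α = r j • α) →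
      ∀ J : Fin n → G ⧸ Z, (∀ i j : Fin n, i ≠ j → ∃ g : G, g • I i = J i ∧ g • I j = J j) →
      J i0 = I i0 → J j0 = I j0 → J = I by
    have hex : ∃ i0 j0 : Fin n, i0 ≠ j0 ∧ (r i0 • α ≠ r j0 • α ∨ ∀ i j, r i • α = r j • α) := by
      by_cases h : ∀ i j, r i • α = r j • α
      · exact ⟨⟨0, by omega⟩, ⟨1, by omega⟩, by simp, Or.inr h⟩
      · push Not at h
        obtain ⟨i, j, hij⟩ := h
        exact ⟨i, j, fun e => hij (by rw [e]), Or.inl hij⟩
    obtain ⟨i0, j0, hij, hor⟩ := hex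
    obtain ⟨g0, hgi, hgj⟩ := hp i0 j0 hij
    have := key i0 j0 hij hor (fun i => g0⁻¹ • J i) (fun i j h => by
      obtain ⟨g, hi, hj⟩ := hp i j h
      exact ⟨g0⁻¹ * g, by rw [mul_smul, hi], by rw [mul_smul, hj]⟩)
      (by rw [inv_smul_eq_iff, hgi]) (by rw [inv_smul_eq_iff, hgj])
    exact ⟨g0, fun i => by rw [← congrFun this i, smul_inv_smul]⟩
  intro i0 j0 hij hor J hp hi hj
  funext k
  by_cases hki : k = i0
  · rw [hki, hi]
  by_cases hkj : k = j0
  · rw [hkj, hj]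
  obtain ⟨u, hu0, huk⟩ := hp i0 k (Ne.symm hki)
  rw [hi] at hu0
  rcases hor with hne | hall
  swap
  · rw [← huk]; exact hsame i0 k (hall _ _) u hu0
  obtain ⟨v, hv0, hvk⟩ := hp j0 k (Ne.symm hkj)
  rw [hj] at hv0
  by_cases hu1 : u = 1
  · rw [← huk, hu1, one_smul]
  by_cases hv1 : v = 1
  · rw [← hvk, hv1, one_smul]
  exfalso
  have hw : (v * u) • I k = I k := by
    have hvi : v⁻¹ = v := inv_eq_of_mul_eq_one_right (hinv v j0 ((hst _ _).1 hv0))
    rw [mul_smul, huk, ← hvk, ← mul_smul]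
    nth_rw 1 [← hvi]
    rw [inv_mul_cancel, one_smul]
  have h3 := hinv _ _ ((hst _ _).1 hw)
  have huu := hinv u i0 ((hst _ _).1 hu0)
  have hvv := hinv v j0 ((hst _ _).1 hv0)
  have hcomm : v * u = u * v := by
    calc v * u = (v * u)⁻¹ := (inv_eq_of_mul_eq_one_right h3).symm
      _ = u * v := by rw [_root_.mul_inv_rev, inv_eq_of_mul_eq_one_right huu, inv_eq_of_mul_eq_one_right hvv]
  obtain ⟨hua, huu'⟩ := hpt u i0 ((hst _ _).1 hu0)
  obtain ⟨-, hvv'⟩ := hpt v j0 ((hst _ _).1 hv0)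
  have h4 : u • v • (r i0 • α) = v • (r i0 • α) := by rw [← mul_smul, ← hcomm, mul_smul, hua]
  have h5 := huu' hu1 _ h4
  exact hne (hvv' hv1 _ h5)

end Cfsg.Agent.Lib.SuzBinary
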