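import Cfsg.Agent.Lib.SuzBinary.Basic
import Cfsg.Agent.Lib.Suz.Classify.Main

/-!
Coset actions of the Suzuki groups at subgroups of the point stabiliser without elements of order four.
-/

set_option autoImplicit false
set_option linter.unusedSectionVars false

namespace Cfsg.Agent.Lib.SuzBinary

open Cfsg Cfsg.Agent.Lib.Suz Cfsg.Agent.Lib.Suz.Classify

variable {F : Type*} [Field F] [Fintype F] [CharP F 2] {m : ℕ}

/-- The scalar by which the torus acts on the centre of `U`. -/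
def nu (F : Type*) [Field F] [CharP F 2] (m : ℕ) : Fˣ →* Fˣ :=
  powMonoidHom 2 * Units.map (th F m).toMonoidHom

theorem nu_val (s : Fˣ) : (nu F m s : F) = (s : F) ^ 2 * th F m s := by simp [nu]

theorem conjMap_mem {G : Type*} [Group G] (H : Subgroup G) (u x : G) :
    x ∈ H.map (MulAut.conj u).toMonoidHom ↔ u⁻¹ * x * u ∈ H := by
  rw [Subgroup.mem_map_equiv, MulAut.conj_symm_apply]

variable (c : Ctx F m)

include c

theorem nu_eq_one {s : Fˣ} (h : nu F m s = 1) : s = 1 := by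
  by_contra hs
  exact (sq_mul_theta_ne c s hs).2 (by rw [← nu_val, h, Units.val_one])

theorem nu_surj (y : Fˣ) : ∃ s, nu F m s = y := by
  obtain ⟨-, ⟨h, hh⟩, -⟩ := theta_units_surj c (y : F) y.ne_zero
  exact ⟨h, Units.ext (by rw [nu_val, hh])⟩

/-- An element of the point stabiliser in normal form. -/
def el (a b : F) (s : Fˣ) : ↥(Cfsg.Sz F m) := uG c a b * tHom c s

theorem el_uG (a b : F) : el c a b 1 = uG c a b := by rw [el, map_one, mul_one]

theorem el_tHom (s : Fˣ) : el c 0 0 s = tHom c s := by rw [el, uG_zero, one_mul]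

theorem el_mul (a b a' b' : F) (s r : Fˣ) : el c a b s * el c a' b' r =
    el c (a + th F m s * a') (b + nu F m s * b' + th F m s * a' * th F m a) (s * r) := by
  rw [el, el, el, nu_val, map_mul, ← uG_mul, mul_assoc, ← mul_assoc (tHom c s), tHom_mul_uG]
  simp only [mul_assoc]

theorem el_inv (a b : F) (s : Fˣ) : (el c a b s)⁻¹ =
    el c (th F m (s⁻¹ : Fˣ) * a) (nu F m s⁻¹ * (b + a * th F m a)) s⁻¹ := by
  rw [el, el, mul_inv_rev, uG_inv, ← map_inv, tHom_mul_uG, nu_val]

theorem exists_el {g : ↥(Cfsg.Sz F m)} (hg : g ∈ bor F m) : ∃ a b s, g = el c a b s :=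
  (fix_inf_iff c g).1 hg

theorem el_inj {a b a' b' : F} {s r : Fˣ} (e : el c a b s = el c a' b' r) : a = a' ∧ b = b' ∧ s = r :=
  uG_tHom_inj c e

theorem el_mem_uSub {a b : F} {s : Fˣ} (h : el c a b s ∈ uSub c) : s = 1 := by
  obtain ⟨a', b', e⟩ := h
  rw [← el_uG c] at e
  exact (el_inj c e).2.2

theorem el_mem_zSub {a b : F} {s : Fˣ} (h : el c a b s ∈ zSub c) : a = 0 ∧ s = 1 := by
  obtain ⟨b', e⟩ := h
  rw [← el_uG c] at e
  exact ⟨(el_inj c e).1, (el_inj c e).2.2⟩

theorem zSub_le_bor : zSub c ≤ bor F m := by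
  rintro _ ⟨b, rfl⟩
  exact uG_smul_inf c 0 b

theorem zSub_le_uSub : zSub c ≤ uSub c := by
  rintro _ ⟨b, rfl⟩
  exact uG_mem_uSub c 0 b

/-- The action at the centre of a Sylow two-subgroup is binary. -/
theorem binary_zSub : Binary (zSub c) := by
  refine binary_of_fixing (Ω := Om F m) (pt m none) ?_ (fun a ha => zSub_le_bor c ha) ?_ ?_
  · rintro _ ⟨b, rfl⟩
    rw [uG_sq, zero_mul, uG_zero]
  · rintro _ ⟨b, rfl⟩ hb o ho
    by_contra h
    exact hb (uG_fix_eq c ho h)
  · intro g hg a ha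
    exact (Subgroup.mem_normalizer_iff.1 (normalizer_zSub c hg) a).1 ha

theorem binary_bot : Binary (⊥ : Subgroup ↥(Cfsg.Sz F m)) := by
  refine binary_of_fixing (Ω := Om F m) (pt m none) ?_ ?_ ?_ ?_ <;>
    simp +contextual [Subgroup.mem_bot]

/-- A subgroup with a torus element and no elements of order four gives a non-binary action. -/
theorem not_binary_tHom {H : Subgroup ↥(Cfsg.Sz F m)} (hb : H ≤ bor F m)
    (hQ : ∀ x ∈ H, x ∈ uSub c → x ∈ zSub c) {l : Fˣ} (hl : l ≠ 1) (hlH : tHom c l ∈ H) : ¬ Binary H := by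
  classical
  rw [← el_tHom] at hlH
  have hρ : th F m l ≠ 1 := (sq_mul_theta_ne c l hl).1
  have hν : (nu F m l : F) ≠ 1 := by rw [nu_val]; exact (sq_mul_theta_ne c l hl).2
  set A : Set F := {b | el c 0 b 1 ∈ H} with hA
  have hadd : ∀ {x y}, x ∈ A → y ∈ A → x + y ∈ A := fun {x y} hx hy => by
    have := mul_mem (show el c 0 x 1 ∈ H from hx) (show el c 0 y 1 ∈ H from hy)
    rw [el_mul] at this
    simpa [hA] using this
  have hscale : ∀ {s : Fˣ}, el c 0 0 s ∈ H → ∀ {x}, x ∈ A → (nu F m s : F) * x ∈ A := fun {s} hs {x} hx => by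
    have := mul_mem (mul_mem hs (show el c 0 x 1 ∈ H from hx)) (inv_mem hs)
    rw [el_inv, el_mul, el_mul] at this
    simpa [hA] using this
  have hinj : ∀ (σ : F), σ ≠ 1 → (∀ x ∈ A, σ * x ∈ A) → ∀ v, (1 + σ) * v ∈ A → v ∈ A := by
    intro σ hσ hst v hv
    have h1 : (1 + σ) ≠ 0 := fun e => hσ ((CharTwo.add_eq_zero).1 e).symm
    obtain ⟨⟨x, hx⟩, e⟩ := Finite.injective_iff_surjective.1
      (show Function.Injective (fun x : A => (⟨(1 + σ) * x, by
        rw [add_mul, one_mul]; exact hadd x.2 (hst _ x.2)⟩ : A)) from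
        fun x y e => Subtype.ext (mul_left_cancel₀ h1 (congrArg Subtype.val e))) ⟨_, hv⟩
    exact mul_left_cancel₀ h1 (congrArg Subtype.val e) ▸ hx
  -- every element is a central element times a torus element
  have hdec : ∀ a b s, el c a b s ∈ H → a = 0 ∧ b ∈ A ∧ el c 0 0 s ∈ H := by
    intro a b s h
    have h2 := mul_mem (mul_mem (mul_mem hlH h) (inv_mem hlH)) (inv_mem h)
    rw [el_inv, el_inv, el_mul, el_mul, el_mul] at h2
    have hs1 : l * s * l⁻¹ * s⁻¹ = 1 := by rw [mul_right_comm l s, mul_inv_cancel, one_mul, mul_inv_cancel]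
    rw [hs1] at h2
    have h3 := hQ _ h2 (by rw [el_uG]; exact uG_mem_uSub c _ _)
    have ha := (el_mem_zSub c h3).1
    simp only [map_zero, mul_zero, zero_mul, add_zero, zero_add, map_mul, Units.val_mul, map_inv,
      Units.val_inv_eq_inv_val, map_inv₀] at ha
    have hs0 : th F m s ≠ 0 := (map_ne_zero (th F m)).2 s.ne_zero
    have hl0 : th F m l ≠ 0 := (map_ne_zero (th F m)).2 l.ne_zero
    field_simp at ha
    have ha0 : a = 0 := (mul_eq_zero.1 ha).resolve_right fun e => hρ (CharTwo.add_eq_zero.1 e)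
    subst ha0
    simp only [map_zero, mul_zero, zero_mul, add_zero, zero_add] at h2
    rw [show nu F m (l * s * l⁻¹) = nu F m s by rw [mul_right_comm, mul_inv_cancel, one_mul],
      map_inv, Units.val_inv_eq_inv_val, mul_inv_cancel_left₀ (nu F m s).ne_zero] at h2
    have hbA : b ∈ A := hinj _ hν (fun x hx => hscale hlH hx) b (by
      rw [add_mul, one_mul, add_comm]; exact h2)
    refine ⟨rfl, hbA, ?_⟩
    have h4 := mul_mem hbA h
    rw [el_mul] at h4
    simpa [add_self0] using h4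
  have hc2 := mul_mem hlH hlH
  by_cases hAu : ∀ x, x ∈ A
  · -- the whole centre
    set ρ := th F m l with hρdef
    have hρ0 : ρ ≠ 0 := (map_ne_zero (th F m)).2 l.ne_zero
    refine not_binary_of_witness (h := el c 0 0 l) (x := el c 1 0 1) (z := el c (1 + ρ⁻¹) 0 1)
      (a := el c 1 0 1 * (el c 0 0 l * el c 0 0 l) * (el c 1 0 1)⁻¹) hlH ?_ ?_ ?_
    · rw [show ∀ x y : ↥(Cfsg.Sz F m), x⁻¹ * (x * y * x⁻¹) * x = y from fun x y => by group]
      exact hc2
    · simp only [el_mul, el_inv, map_zero, mul_zero, zero_mul, add_zero, zero_add]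
      set B : F := _
      rw [show ∀ (a : F) (s : Fˣ), el c a B s = el c a 0 1 * el c 0 (B) 1 * el c 0 0 s from fun a s => by
        simp [el_mul]]
      refine mul_mem (mul_mem ?_ (hAu _)) ?_
      · convert one_mem H using 1
        rw [el_uG, ← uG_zero c]
        congr 1
        simp only [map_mul, map_one, Units.val_mul, Units.val_one, inv_one, Units.val_inv_eq_inv_val,
          map_inv₀, one_mul, mul_one, ← hρdef, mul_inv_rev, mul_inv_cancel_right]
        field_simp
        linear_combination (norm := (ring_nf; simp [two0])) (0 : F) = 0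
      · convert inv_mem hlH using 1
        rw [el_inv]
        simp
    · intro k hk hx hz
      obtain ⟨a, b, s, rfl⟩ := exists_el c (hb hk)
      obtain ⟨rfl, hbA, hs⟩ := hdec _ _ _ hk
      simp only [el_mul, el_inv, map_zero, mul_zero, zero_mul, add_zero, zero_add] at hx hz
      have e1 := (hdec _ _ _ hx).1
      simp only [map_one, Units.val_one, inv_one, one_mul, mul_one] at e1
      have hs1 : s = 1 := Units.ext ((th F m).injective (by rw [Units.val_one, map_one]; exact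
        (CharTwo.add_eq_zero.1 e1).symm))
      subst hs1
      have e2 := (hdec _ _ _ hz).1
      simp only [map_one, Units.val_one, inv_one, one_mul, mul_one, map_mul, ← hρdef] at e2
      have : (1 + ρ) * (1 + ρ⁻¹) = 0 := by linear_combination e2
      rcases mul_eq_zero.1 this with h | h
      · exact hρ (CharTwo.add_eq_zero.1 h).symm
      · exact hρ (inv_eq_one.1 (CharTwo.add_eq_zero.1 h).symm)
  · push Not at hAu
    obtain ⟨v, hv⟩ := hAu
    set ν : F := (nu F m l : F) with hνdef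
    have hν0 : ν ≠ 0 := (nu F m l).ne_zero
    refine not_binary_of_witness (h := el c 0 0 l) (x := el c 0 v 1) (z := el c 0 ((1 + ν⁻¹) * v) 1)
      (a := el c 0 v 1 * (el c 0 0 l * el c 0 0 l) * (el c 0 v 1)⁻¹) hlH ?_ ?_ ?_
    · rw [show ∀ x y : ↥(Cfsg.Sz F m), x⁻¹ * (x * y * x⁻¹) * x = y from fun x y => by group]
      exact hc2
    · convert inv_mem hlH using 1
      simp only [el_mul, el_inv, map_zero, mul_zero, zero_mul, add_zero, zero_add]
      congr 1
      · simp only [map_mul, map_one, Units.val_mul, Units.val_one, inv_one, map_inv,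
          Units.val_inv_eq_inv_val, one_mul, mul_one, ← hνdef, mul_inv_rev]
        field_simp
        linear_combination (norm := (ring_nf; simp [two0])) (0 : F) = 0
      · simp
    · intro k hk hx hz
      obtain ⟨a, b, s, rfl⟩ := exists_el c (hb hk)
      obtain ⟨rfl, hbA, hs⟩ := hdec _ _ _ hk
      simp only [el_mul, el_inv, map_zero, mul_zero, zero_mul, add_zero, zero_add] at hx hz
      have e1 := (hdec _ _ _ hx).2.1
      simp only [map_one, Units.val_one, inv_one, one_mul, mul_one] at e1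
      have hs1 : s = 1 := by
        by_contra h
        refine hv (hinj _ (by rw [nu_val]; exact (sq_mul_theta_ne c s h).2) (fun x hx => hscale hs hx) v ?_)
        have := hadd e1 hbA
        convert this using 1
        linear_combination (norm := (ring_nf; simp [two0])) (0 : F) = 0
      subst hs1
      have e2 := (hdec _ _ _ hz).2.1
      simp only [map_one, Units.val_one, inv_one, one_mul, mul_one, ← hνdef] at e2
      have h5 : (1 + ν) * ((1 + ν⁻¹) * v) ∈ A := by
        convert hadd e2 hbA using 1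
        linear_combination (norm := (ring_nf; simp [two0])) (0 : F) = 0
      have h6 := hscale hlH (hinj _ hν (fun x hx => hscale hlH hx) _ h5)
      refine hv (hinj _ hν (fun x hx => hscale hlH hx) v ?_)
      convert h6 using 1
      rw [← hνdef]
      field_simp
      ring

/-- A proper non-trivial subgroup of the centre gives a non-binary action. -/
theorem not_binary_sub_z {H : Subgroup ↥(Cfsg.Sz F m)} (hle : H ≤ zSub c) (hbot : H ≠ ⊥)
    (hne : H ≠ zSub c) : ¬ Binary H := by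
  classical
  intro hB
  choose ℓ hℓ using fun y : Fˣ => nu_surj c y
  let pc' : Fˣ → ↥(Cfsg.Sz F m) ⧸ H := fun y => ((tHom c (ℓ y) : ↥(Cfsg.Sz F m)) : ↥(Cfsg.Sz F m) ⧸ H)
  let A : AddSubgroup F :=
    { carrier := {b | uG c 0 b ∈ H}
      zero_mem' := by show uG c 0 0 ∈ H; rw [uG_zero]; exact one_mem _
      add_mem' := fun {x y} hx hy => by
        have := mul_mem (show uG c 0 x ∈ H from hx) (show uG c 0 y ∈ H from hy)
        rw [uG_mul] at this
        simpa using this
      neg_mem' := fun {x} hx => by rw [CharTwo.neg_eq]; exact hx }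
  let Wi : Finset Fˣ → AddSubgroup F := fun S => ⨅ y ∈ S, A.comap (AddMonoidHom.mulLeft ((y : F)⁻¹))
  have hWi : ∀ S x, x ∈ Wi S ↔ ∀ y ∈ S, uG c 0 ((y : F)⁻¹ * x) ∈ H := fun S x => by
    simp only [Wi, AddSubgroup.mem_iInf, AddSubgroup.mem_comap]
    rfl
  -- fixing a coset
  have hfix : ∀ (y : Fˣ) (x : F), uG c 0 x • pc' y = pc' y ↔ uG c 0 ((y : F)⁻¹ * x) ∈ H := by
    intro y x
    rw [smul_coset_eq, show (tHom c (ℓ y))⁻¹ * uG c 0 x * tHom c (ℓ y) =
      tHom c (ℓ y)⁻¹ * uG c 0 x * (tHom c (ℓ y)⁻¹)⁻¹ by rw [map_inv, inv_inv],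
      tHom_conj_uG, mul_zero, ← nu_val, map_inv, hℓ, Units.val_inv_eq_inv_val]
  have hfixg : ∀ (y : Fˣ) (g : ↥(Cfsg.Sz F m)), g • pc' y = pc' y → ∃ x, g = uG c 0 x := by
    intro y g hg
    obtain ⟨b, hb⟩ := hle (smul_coset_eq.1 hg)
    refine ⟨(nu F m (ℓ y) : F) * b, ?_⟩
    rw [show g = tHom c (ℓ y) * uG c 0 b * (tHom c (ℓ y))⁻¹ by rw [← hb]; group, tHom_conj_uG, mul_zero, nu_val]
  -- a minimal non-trivial intersection
  obtain ⟨a0, ha0, hne0⟩ : ∃ a0, uG c 0 a0 ∈ H ∧ a0 ≠ 0 := by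
    obtain ⟨⟨g, hg⟩, h1⟩ := Subgroup.ne_bot_iff_exists_ne_one.1 hbot
    obtain ⟨b, rfl⟩ := hle hg
    exact ⟨b, hg, fun e => h1 (Subtype.ext (by subst e; exact uG_zero c))⟩
  obtain ⟨v, hv⟩ : ∃ v, uG c 0 v ∉ H := by
    by_contra h
    push Not at h
    exact hne (le_antisymm hle (by rintro _ ⟨b, rfl⟩; exact h b))
  obtain ⟨S, hS, hmin⟩ := Finset.exists_min_image
    ((Finset.univ : Finset (Finset Fˣ)).filter fun S => S.Nonempty ∧ Wi S ≠ ⊥) (fun S => Nat.card (Wi S))
    ⟨{1}, by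
      simp only [Finset.mem_filter, Finset.mem_univ, Finset.singleton_nonempty, true_and]
      intro h
      exact hne0 ((AddSubgroup.eq_bot_iff_forall _).1 h a0 ((hWi _ _).2 fun y hy => by
        rw [Finset.mem_singleton.1 hy]; simpa using ha0))⟩
  simp only [Finset.mem_filter, Finset.mem_univ, true_and] at hS hmin
  obtain ⟨hSne, hW⟩ := hS
  obtain ⟨⟨w, hw⟩, hw0⟩ := AddSubgroup.ne_bot_iff_exists_ne_zero.1 hW
  have hw0 : w ≠ 0 := fun e => hw0 (Subtype.ext e)
  obtain ⟨y0, hy0⟩ := hSne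
  set d := (y0 : F) * v with hd
  have hdW : d ∉ Wi S := fun h => hv (by
    have := (hWi _ _).1 h y0 hy0
    rwa [hd, inv_mul_cancel_left₀ y0.ne_zero] at this)
  have hd0 : d ≠ 0 := fun e => hdW (by rw [e]; exact zero_mem _)
  have hdis : ∀ (r : Fˣ) (y : F), y ∈ Wi S → (r : F) * y ∉ Wi S →
      ∀ x ∈ Wi S, (r : F) * x ∈ Wi S → x = 0 := by
    intro r y hy hry x hx hrx
    by_contra hx0
    set S' := S ∪ S.image (fun t => r⁻¹ * t) with hS'
    have hmem : ∀ t, t ∈ Wi S' ↔ t ∈ Wi S ∧ (r : F) * t ∈ Wi S := by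
      intro t
      simp only [hWi, hS', Finset.forall_mem_union, Finset.forall_mem_image, Units.val_mul,
        Units.val_inv_eq_inv_val, mul_inv_rev, inv_inv, mul_assoc]
    have hle' : Wi S' ≤ Wi S := fun t ht => ((hmem t).1 ht).1
    have hne' : Wi S' ≠ ⊥ := fun h => hx0 ((AddSubgroup.eq_bot_iff_forall _).1 h x ((hmem x).2 ⟨hx, hrx⟩))
    have := hmin S' ⟨⟨y0, Finset.mem_union_left _ hy0⟩, hne'⟩
    have e := SetLike.coe_injective (Set.eq_of_subset_of_ncard_le hle' (by
      rwa [← Nat.card_coe_set_eq, ← Nat.card_coe_set_eq]) (Set.toFinite _))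
    exact hry ((hmem y).1 (e ▸ hy)).2
  set lam : Fˣ := Units.mk0 (d / w) (div_ne_zero hd0 hw0) with hlam
  have hcW : w + d ∉ Wi S := fun h => hdW (by
    have := add_mem hw h
    rwa [← add_assoc, add_self0, zero_add] at this)
  set mu : Fˣ := Units.mk0 ((w + d) / w) (div_ne_zero (fun e => hcW (by rw [e]; exact zero_mem _)) hw0) with hmu
  have el' : (lam : F) * w = d := by simp [hlam, hw0]
  have em' : (mu : F) * w = w + d := by simp [hmu, hw0]
  have hdl := hdis lam w hw (by rwa [el'])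
  have hdm := hdis mu w hw (by rwa [em'])
  -- membership in the translates
  have htr : ∀ (r : Fˣ) (x : F), (∀ y ∈ S, uG c 0 x • pc' (r * y) = pc' (r * y)) ↔ (r : F)⁻¹ * x ∈ Wi S := by
    intro r x
    rw [hWi]
    simp only [hfix, Units.val_mul, mul_inv_rev, mul_assoc]
  have h1S : ∀ x, (∀ y ∈ S, uG c 0 x • pc' y = pc' y) ↔ x ∈ Wi S := fun x => by
    rw [hWi]; simp only [hfix]
  have f1 := (h1S w).2 hw
  have f2 := (htr lam d).2 (by rw [← el', inv_mul_cancel_left₀ lam.ne_zero]; exact hw)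
  have f3 := (htr mu (w + d)).2 (by rw [← em', inv_mul_cancel_left₀ mu.ne_zero]; exact hw)
  let P : ↥S ⊕ ↥S ⊕ ↥S → ↥(Cfsg.Sz F m) ⧸ H :=
    Sum.elim (fun y => pc' y) (Sum.elim (fun y => pc' (lam * y)) (fun y => pc' (mu * y)))
  let P' : ↥S ⊕ ↥S ⊕ ↥S → ↥(Cfsg.Sz F m) ⧸ H :=
    Sum.elim (fun y => pc' y) (Sum.elim (fun y => pc' (lam * y)) (fun y => uG c 0 w • pc' (mu * y)))
  have hswap : ∀ y ∈ S, uG c 0 d • pc' (mu * y) = uG c 0 w • pc' (mu * y) := fun y hy => by
    conv_rhs => rw [← f3 y hy, ← mul_smul, uG_mul, map_zero, mul_zero, add_zero, add_zero,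
      show w + (w + d) = d by rw [← add_assoc, add_self0, zero_add]]
  let e := (Fintype.equivFin (↥S ⊕ ↥S ⊕ ↥S)).symm
  obtain ⟨g, hg⟩ := hB (Fintype.card (↥S ⊕ ↥S ⊕ ↥S)) (P ∘ e) (P' ∘ e) (by
      have : 0 < Fintype.card ↥S := Fintype.card_pos_iff.2 ⟨⟨y0, hy0⟩⟩
      simp only [Fintype.card_sum]; omega) (by
    intro i j hij
    simp only [Function.comp_apply]
    rcases e i with ⟨y, hy⟩ | ⟨y, hy⟩ | ⟨y, hy⟩ <;> rcases e j with ⟨y', hy'⟩ | ⟨y', hy'⟩ | ⟨y', hy'⟩
    · exact ⟨1, one_smul _ _, one_smul _ _⟩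
    · exact ⟨1, one_smul _ _, one_smul _ _⟩
    · exact ⟨uG c 0 w, f1 y hy, rfl⟩
    · exact ⟨1, one_smul _ _, one_smul _ _⟩
    · exact ⟨1, one_smul _ _, one_smul _ _⟩
    · exact ⟨uG c 0 d, f2 y hy, hswap y' hy'⟩
    · exact ⟨uG c 0 w, rfl, f1 y' hy'⟩
    · exact ⟨uG c 0 d, hswap y hy, f2 y' hy'⟩
    · exact ⟨uG c 0 w, rfl, rfl⟩)
  have hg' : ∀ t, g • P t = P' t := fun t => by simpa using hg (e.symm t)
  obtain ⟨x, rfl⟩ := hfixg y0 g (hg' (Sum.inl ⟨y0, hy0⟩))
  have hx1 : x ∈ Wi S := (h1S x).1 fun y hy => hg' (Sum.inl ⟨y, hy⟩)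
  have hx2 := (htr lam x).1 fun y hy => hg' (Sum.inr (Sum.inl ⟨y, hy⟩))
  have hx0 : x = 0 := by
    have := hdl _ hx2 (by rwa [mul_inv_cancel_left₀ lam.ne_zero])
    simpa using this
  subst hx0
  have hx3 := (htr mu w).1 fun y hy => by
    have := hg' (Sum.inr (Sum.inr ⟨y, hy⟩))
    rw [uG_zero, one_smul] at this
    exact this.symm
  have := hdm _ hx3 (by rwa [mul_inv_cancel_left₀ mu.ne_zero])
  exact hw0 (by simpa using this)

/-- The case of no elements of order four. -/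
theorem not_binary_elem {H : Subgroup ↥(Cfsg.Sz F m)} (hb : H ≤ bor F m)
    (hQ : ∀ x ∈ H, x ∈ uSub c → x ∈ zSub c) (hbot : H ≠ ⊥) (hne : H ≠ zSub c) : ¬ Binary H := by
  by_cases hU : ∀ x ∈ H, x ∈ uSub c
  · exact not_binary_sub_z c (fun x hx => hQ x hx (hU x hx)) hbot hne
  push Not at hU
  obtain ⟨g, hg, hgU⟩ := hU
  rcases fix_inf_cases c (hb hg) with h | ⟨o, ho, hgo⟩
  · exact absurd h hgU
  obtain ⟨o, rfl⟩ := (pt_bij m).2 o
  rcases o with _ | ⟨x, y⟩
  · exact absurd rfl ho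
  set u := uG c x y with hu
  have hui : u⁻¹ • pt (F := F) m none = pt m none := by rw [inv_smul_eq_iff, hu, uG_smul_inf]
  obtain ⟨l, hl⟩ := (two_point_iff c (u⁻¹ * g * u)).1
    ⟨by rw [mul_smul, mul_smul, hu, uG_smul_inf, show g • pt (F := F) m none = pt m none from hb hg, ← hu, hui],
      by rw [mul_smul, mul_smul, hu, uG_smul_zero, hgo, inv_smul_eq_iff, uG_smul_zero]⟩
  rw [← binary_map_iff (MulAut.conj u⁻¹)]
  refine not_binary_tHom c ?_ ?_ (l := l) ?_ ?_
  · intro z hz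
    rw [conjMap_mem, inv_inv] at hz
    have h1 : (u * z * u⁻¹) • pt (F := F) m none = pt m none := hb hz
    rw [mul_smul, mul_smul, hui, smul_eq_iff_eq_inv_smul, hui] at h1
    exact h1
  · intro z hz hzU
    rw [conjMap_mem, inv_inv] at hz
    have huU : u ∈ uSub c := uG_mem_uSub c x y
    have h1 := hQ _ hz (mul_mem (mul_mem huU hzU) (inv_mem huU))
    exact (Subgroup.mem_normalizer_iff.1 (normalizer_zSub c (uG_smul_inf c x y)) z).2 h1
  · rintro rfl
    rw [map_one, mul_eq_one_iff_eq_inv] at hl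
    exact hgU (by
      rw [show g = 1 by simpa [mul_assoc] using hl]
      exact one_mem _)
  · rw [conjMap_mem, inv_inv, ← hl]
    convert hg using 1
    group

end Cfsg.Agent.Lib.SuzBinary
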