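import Cfsg.Agent.Lib.SuzBinary.Count
import Cfsg.Agent.Lib.SuzBinary.Elementary

/-!
Coset actions of the Suzuki groups at subgroups fixing a point of the ovoid.
-/

set_option autoImplicit false
set_option linter.unusedSectionVars false

namespace Cfsg.Agent.Lib.SuzBinary

open Cfsg Cfsg.Agent.Lib Cfsg.Agent.Lib.Suz Cfsg.Agent.Lib.Suz.Classify Cfsg.Agent.Lib.SuzChar

universe u

variable {F : Type u} [Field F] [Fintype F] [CharP F 2] {m : ℕ} (c : Ctx F m)

include c

/-- The torus component in the big cell is unique. -/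
theorem bruhat_torus {a b a' b' a₁ b₁ a₂ b₂ : F} {s r : Fˣ}
    (e : uG c a b * wG c * el c a' b' s = uG c a₁ b₁ * wG c * el c a₂ b₂ r) : s = r := by
  have h0 := congrArg (fun g : ↥(Cfsg.Sz F m) => g • pt (F := F) m none) e
  simp only [el, mul_smul, tHom_smul_inf, uG_smul_inf, wG_smul_inf, uG_smul_zero] at h0
  have h1 := (pt_bij m).1 h0
  simp only [Option.some.injEq, Prod.mk.injEq] at h1
  obtain ⟨rfl, rfl⟩ := h1
  exact (el_inj c (mul_left_cancel e)).2.2

theorem wG_fix_inf {p : ↥(Cfsg.Sz F m)} (h4 : p ^ 4 = 1)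
    (h0 : p • pt (F := F) m (some (0, 0)) = pt m (some (0, 0))) : wG c * p * wG c ∈ uSub c := by
  refine uni_mem_uSub c ?_ ?_
  · rw [show wG c * p * wG c = wG c * p * (wG c)⁻¹ by rw [wG_inv], conj_pow, h4, mul_one, mul_inv_cancel]
  · rw [mul_smul, mul_smul, wG_smul_inf, h0, wG_smul_zero]

theorem not_binary_order4 {H : Subgroup ↥(Cfsg.Sz F m)} (hb : H ≤ bor F m) (hf : uG c 1 0 ∈ H) :
    ¬ Binary H := by
  classical
  haveI : Fintype ↥(Cfsg.Sz F m) := Fintype.ofFinite _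
  obtain ⟨a, ha, hab, haU⟩ := exists_unipotent c (b := (1 : F)) one_ne_zero
  obtain ⟨g, hg⟩ := isConj_iff.1 ha.symm
  obtain ⟨g', hg'⟩ := isConj_iff.1 hab.symm
  have hh : uG c 0 1 ∈ H := by rw [← f0_sq c]; exact mul_mem hf hf
  have hfinf : uG c 1 0 • pt (F := F) m none = pt m none := uG_smul_inf c 1 0
  refine not_binary_of_witness hh (x := g) (z := g') (a := a) ?_ ?_ ?_
  · rw [← hg]; simpa [mul_assoc] using hf
  · rw [← hg']; simpa [mul_assoc] using hf
  intro k hk hx hz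
  have ha4 : a ^ 4 = 1 := by
    rw [← hg, conj_pow, four_of_fix_inf c (uG_mem_uSub c 1 0), mul_one, mul_inv_cancel]
  have hb4 : (a⁻¹ * uG c 0 1) ^ 4 = 1 := by
    rw [← hg', conj_pow, four_of_fix_inf c (uG_mem_uSub c 1 0), mul_one, mul_inv_cancel]
  have hgne : g • pt (F := F) m none ≠ pt m none := fun h => haU (by
    rw [← hg]
    exact (Subgroup.mem_normalizer_iff.1 ((mem_normalizer_uSub_iff c g).2 h) _).1 (uG_mem_uSub c 1 0))
  have hg'ne : g' • pt (F := F) m none ≠ pt m none := fun h => haU (by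
    have h1 := (Subgroup.mem_normalizer_iff.1 ((mem_normalizer_uSub_iff c g').2 h) _).1 (uG_mem_uSub c 1 0)
    rw [hg'] at h1
    have := mul_mem (uG_mem_uSub c 0 1) (inv_mem h1)
    simpa using this)
  obtain ⟨⟨⟩ | ⟨x0, y0⟩, hβ⟩ := (pt_bij m).2 (g • pt (F := F) m none)
  · exact hgne hβ.symm
  set u := uG c x0 y0 with hu
  have hui : u⁻¹ • pt (F := F) m none = pt m none := by rw [inv_smul_eq_iff, hu, uG_smul_inf]
  have hu0 : u • pt (F := F) m (some (0, 0)) = g • pt m none := by rw [hu, uG_smul_zero, hβ]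
  -- the element `k` in torus form
  obtain ⟨s, hs⟩ := (two_point_iff c (u⁻¹ * k * u)).1
    ⟨by rw [mul_smul, mul_smul, hu, uG_smul_inf, show k • pt (F := F) m none = pt m none from hb hk, ← hu, hui],
      by
        have h1 : (g⁻¹ * k * g) • pt (F := F) m none = pt m none := hb hx
        rw [mul_smul, mul_smul, inv_smul_eq_iff] at h1
        rw [mul_smul, mul_smul, hu0, h1, ← hu0, inv_smul_smul]⟩
  obtain ⟨⟨⟩ | ⟨x, y⟩, hγ⟩ := (pt_bij m).2 (u⁻¹ • g' • pt (F := F) m none)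
  · rw [eq_comm, inv_smul_eq_iff, hu, uG_smul_inf] at hγ
    exact hg'ne hγ
  have hcomm : u⁻¹ * uG c 0 1 * u = uG c 0 1 := by
    rw [mul_assoc, inv_mul_eq_iff_eq_mul, hu, uG_mul, uG_mul]
    simp [add_comm]
  have hfix : tHom c s⁻¹ • uG c 0 1 • pt (F := F) m (some (x, y)) = pt m (some (x, y)) := by
    have h1 : (g'⁻¹ * (k⁻¹ * uG c 0 1) * g') • pt (F := F) m none = pt m none := hb hz
    rw [mul_smul, mul_smul, inv_smul_eq_iff] at h1
    rw [map_inv, ← hs, hγ]
    conv_lhs => rw [← hcomm]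
    rw [← mul_smul, ← mul_smul, show (u⁻¹ * k * u)⁻¹ * (u⁻¹ * uG c 0 1 * u) * u⁻¹ =
      u⁻¹ * (k⁻¹ * uG c 0 1) by group, mul_smul, h1]
  rw [uG_smul, tHom_smul] at hfix
  have hxy := (pt_bij m).1 hfix
  simp only [map_zero, zero_mul, add_zero, Option.some.injEq, Prod.mk.injEq] at hxy
  obtain ⟨e1, e2⟩ := hxy
  have hx0 : x = 0 := by
    by_contra h0
    have hθ : th F m ((s⁻¹ : Fˣ) : F) = 1 := mul_right_cancel₀ h0 (by rw [one_mul]; exact e1)
    have hs1 : ((s⁻¹ : Fˣ) : F) = 1 := (th F m).injective (by rw [hθ, map_one])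
    rw [hs1, map_one] at e2
    exact one_ne_zero (α := F) (by linear_combination e2)
  subst hx0
  -- the two conjugates
  set v := uG c 0 y with hv
  have hv0 : v • pt (F := F) m (some (0, 0)) = u⁻¹ • g' • pt m none := by rw [hv, uG_smul_zero, hγ]
  have hp : wG c * (u⁻¹ * a * u) * wG c ∈ uSub c := by
    refine wG_fix_inf c ?_ ?_
    · rw [show u⁻¹ * a * u = u⁻¹ * a * (u⁻¹)⁻¹ by rw [inv_inv], conj_pow, ha4, mul_one, mul_inv_cancel]
    · rw [mul_smul, mul_smul, hu0, ← mul_smul a, ← hg, inv_mul_cancel_right, mul_smul, hfinf, ← hu0,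
        inv_smul_smul]
  have hp' : wG c * ((u * v)⁻¹ * (a⁻¹ * uG c 0 1) * (u * v)) * wG c ∈ uSub c := by
    refine wG_fix_inf c ?_ ?_
    · rw [show ∀ A B : ↥(Cfsg.Sz F m), A⁻¹ * B * A = A⁻¹ * B * (A⁻¹)⁻¹ from fun A B => by rw [inv_inv],
        conj_pow, hb4, mul_one, mul_inv_cancel]
    · rw [mul_smul, mul_smul, mul_smul u v, hv0, smul_inv_smul, ← mul_smul (a⁻¹ * uG c 0 1), ← hg',
        inv_mul_cancel_right, mul_smul, hfinf, inv_smul_eq_iff, mul_smul, hv0, smul_inv_smul]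
  obtain ⟨pa, pb, hp⟩ := hp
  obtain ⟨qa, qb, hp'⟩ := hp'
  have hvv : v⁻¹ = v := by rw [hv, uG_inv]; simp
  have key : uG c pa pb * (wG c * v * wG c) * uG c qa qb = wG c * uG c 0 (1 + y) * wG c := by
    rw [← hp, ← hp', show uG c 0 (1 + y) = uG c 0 1 * v by rw [hv, uG_mul]; simp]
    calc _ = wG c * (u⁻¹ * a * u) * (wG c * wG c) * v * (wG c * wG c) * ((u * v)⁻¹ * (a⁻¹ * uG c 0 1) * (u * v))
          * wG c := by group
      _ = wG c * (u⁻¹ * uG c 0 1 * u) * v * wG c := by rw [wG_mul_self]; group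
      _ = _ := by rw [hcomm, mul_assoc (wG c) (uG c 0 1) v]
  have hy0 : y ≠ 0 := by
    intro h0
    rw [hv, h0, uG_zero, mul_one, wG_mul_self, mul_one, uG_mul, add_zero] at key
    have := congrArg (fun g : ↥(Cfsg.Sz F m) => g • pt (F := F) m none) key
    simp only [uG_smul_inf, mul_smul, wG_smul_inf, uG_smul_zero] at this
    have h3 := congrArg (fun o => wG c • o) this
    simp only [← mul_smul, wG_mul_self, one_smul, wG_smul_inf] at h3
    simpa using (pt_bij m).1 h3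
  have hy1 : 1 + y ≠ 0 := by
    intro h1
    rw [h1, uG_zero, mul_one, wG_mul_self] at key
    have := congrArg (fun g : ↥(Cfsg.Sz F m) => g • pt (F := F) m none) key
    simp only [mul_smul, uG_smul_inf, wG_smul_inf, one_smul, hv, uG_smul_zero, smul_eq_iff_eq_inv_smul,
      wG_inv, wG_smul_inf] at this
    have h2 := mem_bor_of_uSub c (inv_mem (uG_mem_uSub c pa pb))
    rw [h2, wG_smul_inf] at this
    exact hy0 (by simpa using (pt_bij m).1 this)
  -- compare the torus components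
  obtain ⟨t, ht⟩ := nu_surj c (Units.mk0 ((1 + y) / y) (div_ne_zero hy1 hy0))
  have hscale : uG c 0 (1 + y) = tHom c t * v * tHom c t⁻¹ := by
    rw [map_inv, hv, tHom_conj_uG, mul_zero, ← nu_val, ht, Units.val_mk0, div_mul_cancel₀ _ hy0]
  have hwt : ∀ r, wG c * tHom c r = tHom c r⁻¹ * wG c := fun r => by
    rw [← wG_conj_tHom, mul_assoc, wG_mul_self, mul_one]
  rcases exists_bruhat c (wG c * v * wG c) with ⟨a1, b1, h1, e⟩ | ⟨a1, b1, a2, b2, τ, e⟩
  · have := congrArg (fun g : ↥(Cfsg.Sz F m) => g • pt (F := F) m none) e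
    simp only [mul_smul, tHom_smul_inf, uG_smul_inf, wG_smul_inf, hv, uG_smul_zero] at this
    have h3 := congrArg (fun o => wG c • o) this
    simp only [← mul_smul, wG_mul_self, one_smul, wG_smul_inf] at h3
    exact hy0 (by simpa using (pt_bij m).1 h3)
  have hs2 : wG c * (tHom c t * v * tHom c t⁻¹) * wG c = tHom c t⁻¹ * (wG c * v * wG c) * tHom c t := by
    calc _ = (wG c * tHom c t) * v * (tHom c t⁻¹ * wG c) := by group
      _ = (tHom c t⁻¹ * wG c) * v * (wG c * tHom c t) := by rw [hwt t]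
      _ = _ := by group
  rw [hscale, hs2, e] at key
  have hR : tHom c t⁻¹ * (uG c a1 b1 * wG c * (uG c a2 b2 * tHom c τ)) * tHom c t =
      uG c (th F m (t⁻¹ : Fˣ) * a1) (((t⁻¹ : Fˣ) : F) ^ 2 * th F m (t⁻¹ : Fˣ) * b1) * wG c *
        el c (th F m t * a2) ((t : F) ^ 2 * th F m t * b2) (t * τ * t) := by
    rw [show tHom c t⁻¹ * (uG c a1 b1 * wG c * (uG c a2 b2 * tHom c τ)) * tHom c t =
      (tHom c t⁻¹ * uG c a1 b1) * (wG c * (uG c a2 b2 * tHom c τ) * tHom c t) by group, tHom_mul_uG,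
      mul_assoc, ← mul_assoc (tHom c t⁻¹), ← mul_assoc (tHom c t⁻¹), ← hwt, mul_assoc (wG c),
      ← mul_assoc (tHom c t), tHom_mul_uG, el, map_mul, map_mul]
    group
  have hL : uG c pa pb * (uG c a1 b1 * wG c * (uG c a2 b2 * tHom c τ)) * uG c qa qb =
      uG c (pa + a1) (pb + b1 + a1 * th F m pa) * wG c * el c (a2 + th F m τ * qa)
        (b2 + (τ : F) ^ 2 * th F m τ * qb + th F m τ * qa * th F m a2) τ := by
    rw [el, ← uG_mul, ← uG_mul]
    simp only [mul_assoc]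
    rw [tHom_mul_uG]
    simp only [mul_assoc]
  rw [hR, hL] at key
  have h2 : t * τ * t = τ := (bruhat_torus c key).symm
  rw [mul_right_comm, mul_eq_right] at h2
  have ht1 : t = 1 := Units.ext (sq_eq_one' (by rw [sq, ← Units.val_mul, h2, Units.val_one]))
  rw [ht1, map_one] at ht
  have := congrArg Units.val ht
  rw [Units.val_one, Units.val_mk0, eq_div_iff hy0, one_mul] at this
  exact one_ne_zero (α := F) (by linear_combination -this)

/-- A binary coset action at a subgroup of the point stabiliser. -/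
theorem binary_borel {H : Subgroup ↥(Cfsg.Sz F m)} (hb : H ≤ bor F m) (hB : Binary H) :
    H = ⊥ ∨ H = zSub c := by
  classical
  by_contra hne
  push Not at hne
  by_cases hQ : ∀ x ∈ H, x ∈ uSub c → x ∈ zSub c
  · exact not_binary_elem c hb hQ hne.1 hne.2 hB
  push Not at hQ
  obtain ⟨x, hx, hxU, hxZ⟩ := hQ
  obtain ⟨k, hk⟩ : ∃ k, k * uG c 1 0 * k⁻¹ ∈ H ⊓ uSub c := by
    obtain ⟨a, b, rfl⟩ := hxU
    have ha : a ≠ 0 := fun e => hxZ ⟨b, by rw [e]⟩
    rcases f_conj c b ha with h | h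
    · obtain ⟨k, hk⟩ := isConj_iff.1 h.symm
      exact ⟨k, by rw [hk]; exact ⟨hx, uG_mem_uSub c a b⟩⟩
    · obtain ⟨k, hk⟩ := isConj_iff.1 h.symm
      refine ⟨k, ?_⟩
      rw [show k * uG c 1 0 * k⁻¹ = (k * (uG c 1 0)⁻¹ * k⁻¹)⁻¹ by group, hk]
      exact inv_mem (show uG c a b ∈ H ⊓ uSub c from ⟨hx, uG_mem_uSub c a b⟩)
  have hkinf : k • pt (F := F) m none = pt m none :=
    fix_inf_of_conj c (uG_mem_uSub c 1 0) (uG10_ne c) hk.2
  refine not_binary_order4 c (H := H.map (MulAut.conj k⁻¹).toMonoidHom) ?_ ?_ ((binary_map_iff _).2 hB)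
  · intro z hz
    rw [conjMap_mem, inv_inv] at hz
    have h1 : (k * z * k⁻¹) • pt (F := F) m none = pt m none := hb hz
    have hki : k⁻¹ • pt (F := F) m none = pt m none := by rw [inv_smul_eq_iff, hkinf]
    rw [mul_smul, mul_smul, hki, smul_eq_iff_eq_inv_smul, hki] at h1
    exact h1
  · rw [conjMap_mem, inv_inv]
    exact hk.1

/-- A binary coset action at a subgroup fixing a point. -/
theorem binary_fix {H : Subgroup ↥(Cfsg.Sz F m)} {o : Om F m} (ho : ∀ x ∈ H, x • o = o) (hB : Binary H) :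
    H = ⊥ ∨ ∃ k, H = (zSub c).map (MulAut.conj k).toMonoidHom := by
  obtain ⟨k, rfl⟩ := exists_smul_inf c o
  have hb : H.map (MulAut.conj k⁻¹).toMonoidHom ≤ bor F m := by
    intro z hz
    rw [conjMap_mem, inv_inv] at hz
    show z • pt (F := F) m none = pt m none
    have := ho _ hz
    rw [mul_smul, mul_smul, inv_smul_smul] at this
    exact MulAction.injective k this
  have hback : H = (H.map (MulAut.conj k⁻¹).toMonoidHom).map (MulAut.conj k).toMonoidHom := by
    rw [map_conj_map, mul_inv_cancel, map_conj_one]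
  rcases binary_borel c hb ((binary_map_iff _).2 hB) with h | h <;> rw [h] at hback
  · exact Or.inl (by rw [hback, Subgroup.map_bot])
  · exact Or.inr ⟨k, hback⟩

end Cfsg.Agent.Lib.SuzBinary
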