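import Cfsg.Agent.Lib.SuzChar.Cover

/-!
Lower bounds for structure constants of the Suzuki groups, giving factorisations outside a prescribed set.
-/

set_option autoImplicit false
set_option linter.style.haveILetI false
set_option linter.unusedSectionVars false

namespace Cfsg.Agent.Lib.SuzBinary

open Cfsg Cfsg.Agent.Lib.Suz Cfsg.Agent.Lib
open Cfsg.Agent.Lib.SuzChar
open scoped ComplexConjugate

universe u

/-- If all factorisations of `g` in the class of `x` start in `S`, the structure constant is small. -/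
theorem sum_term_le {G : Type u} [Group G] [Fintype G] {x g : G} (S : Subgroup G)
    (h : ∀ a : G, IsConj a x → IsConj (a⁻¹ * g) x → a ∈ S) :
    (∑ χ : IrrCharacter G, term x g χ.1).re ≤
      (Nat.card S : ℝ) * Nat.card G / ((Subgroup.centralizer ({x} : Set G)).index : ℝ) ^ 2 := by
  classical
  set cl := Finset.univ.filter fun y => IsConj y g with hcl
  set P := Finset.univ.filter fun p : G × G => IsConj p.1 x ∧ IsConj p.2 x ∧ IsConj (p.1 * p.2) g with hP
  set idx : ℕ := (Subgroup.centralizer ({x} : Set G)).index with hidx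
  have hpos : 0 < cl.card := Finset.card_pos.2 ⟨g, Finset.mem_filter.2 ⟨Finset.mem_univ _, IsConj.refl g⟩⟩
  -- the structure constant counts the pairs
  have key : ((idx : ℂ) * idx) * ∑ χ : IrrCharacter G, term x g χ.1 =
      (P.card : ℂ) * ((Nat.card G : ℂ) / cl.card) := by
    rw [Finset.mul_sum, Finset.sum_congr rfl fun χ _ => show (idx : ℂ) * idx * term x g χ.1 =
      conj (χ.1 g) * ∑ a : G, ∑ b : G, CharTools.classInd x a * CharTools.classInd x b * χ.1 (a * b) by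
        rw [CharTools.sum_classes_mul χ.2, term]; ring]
    simp only [Finset.mul_sum]
    rw [Finset.sum_comm]
    rw [← nsmul_eq_mul, ← Finset.sum_const, hP, Finset.sum_filter, Fintype.sum_prod_type]
    refine Finset.sum_congr rfl fun a _ => ?_
    rw [Finset.sum_comm]
    refine Finset.sum_congr rfl fun b _ => ?_
    by_cases ha : IsConj a x
    swap
    · simp [CharTools.classInd_of_not ha, ha, -isConj_iff]
    by_cases hb : IsConj b x
    swap
    · simp [CharTools.classInd_of_not hb, hb, -isConj_iff]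
    have h0 := Char.sum_irr_mul_conj (a * b) g
    simp only [CharTools.classInd_of ha, CharTools.classInd_of hb, one_mul, ha, hb, true_and]
    rw [Finset.sum_congr rfl fun χ _ => mul_comm _ _]
    convert h0
  -- the pairs are few
  have hle : P.card ≤ cl.card * Nat.card S := by
    choose k hk using fun y : {y // y ∈ cl} => isConj_iff.1 (Finset.mem_filter.1 y.2).2.symm
    have hmem : ∀ p : {p // p ∈ P}, p.1.1 * p.1.2 ∈ cl := fun p => by
      simpa [hcl] using (Finset.mem_filter.1 p.2).2.2.2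
    let f : {p // p ∈ P} → {y // y ∈ cl} × S := fun p =>
      (⟨_, hmem p⟩, ⟨(k ⟨_, hmem p⟩)⁻¹ * p.1.1 * k ⟨_, hmem p⟩, by
        obtain ⟨-, h1, h2, -⟩ := Finset.mem_filter.1 p.2
        set t := k ⟨_, hmem p⟩
        have ht : t * g * t⁻¹ = p.1.1 * p.1.2 := hk ⟨_, hmem p⟩
        refine h _ ?_ ?_
        · exact (isConj_iff.2 ⟨t, by group⟩).trans h1
        · refine (isConj_iff.2 ⟨t, ?_⟩).trans h2
          calc t * ((t⁻¹ * p.1.1 * t)⁻¹ * g) * t⁻¹ = (p.1.1)⁻¹ * (t * g * t⁻¹) := by group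
            _ = p.1.2 := by rw [ht]; group⟩)
    have hf : Function.Injective f := by
      rintro ⟨⟨a, b⟩, hp⟩ ⟨⟨a', b'⟩, hp'⟩ e
      obtain ⟨e1, e2⟩ := Prod.mk.injEq _ _ _ _ ▸ e
      have e1' : a * b = a' * b' := congrArg Subtype.val e1
      have e2' := congrArg Subtype.val e2
      simp only at e2'
      rw [show k ⟨a * b, hmem ⟨(a, b), hp⟩⟩ = k ⟨a' * b', hmem ⟨(a', b'), hp'⟩⟩ by rw [e1]] at e2'
      obtain rfl : a = a' := by simpa using e2'
      obtain rfl : b = b' := mul_left_cancel e1'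
      rfl
    have := Nat.card_le_card_of_injective f hf
    simpa [Nat.card_prod, Nat.card_eq_fintype_card] using this
  have hi : (0 : ℝ) < (idx : ℝ) ^ 2 := by
    have : idx ≠ 0 := Subgroup.index_ne_zero_of_finite
    positivity
  have hre := congrArg Complex.re key
  rw [show ((idx : ℂ) * idx) = (((idx : ℝ) ^ 2 : ℝ) : ℂ) by push_cast; ring, Complex.re_ofReal_mul,
    show (P.card : ℂ) * ((Nat.card G : ℂ) / cl.card) = (((P.card : ℝ) * ((Nat.card G : ℝ) / cl.card) : ℝ) : ℂ) by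
      push_cast; rfl, Complex.ofReal_re] at hre
  rw [le_div_iff₀ hi, mul_comm, hre, mul_div_assoc', div_le_iff₀ (by exact_mod_cast hpos)]
  calc (P.card : ℝ) * (Nat.card G : ℝ) ≤ ((cl.card : ℝ) * Nat.card S) * Nat.card G := by
        gcongr; exact_mod_cast hle
    _ = _ := by ring

variable {F : Type u} [Field F] [Fintype F] [CharP F 2] {m : ℕ} (c : Ctx F m)
variable [DecidableEq F] [Fintype ↥(Cfsg.Sz F m)]

include c

/-- A lower bound for the structure constant from the families. -/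
theorem sum_term_ge {F1 F2 W : Finset (IrrCharacter ↥(Cfsg.Sz F m))} (T : Table c F1 F2 W)
    {x g : ↥(Cfsg.Sz F m)} {bS b1 b2 bW : ℝ} (hS : bS ≤ (term x g (stn c)).re)
    (hP : ∀ α : Fˣ →* ℂˣ, α ≠ 1 → 0 ≤ (term x g (prin c α)).re)
    (h1 : b1 ≤ (∑ χ ∈ F1, term x g χ.1).re) (h2 : b2 ≤ (∑ χ ∈ F2, term x g χ.1).re)
    (hW : bW ≤ (∑ χ ∈ W, term x g χ.1).re) :
    1 + bS + b1 + b2 + bW ≤ (∑ χ : IrrCharacter ↥(Cfsg.Sz F m), term x g χ.1).re := by
  classical
  haveI : Fintype (Fˣ →* ℂˣ) := Fintype.ofFinite _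
  rw [sum_irr_eq c fun φ => term x g φ, T.cover,
    ← Finset.add_sum_erase _ _ (Finset.mem_univ (1 : Fˣ →* ℂˣ)), add_sub_cancel_left]
  have hb := re_sum_ge (f := fun α => term x g (prin c α)) (s := Finset.univ.erase (1 : Fˣ →* ℂˣ))
    fun α hα => hP α (Finset.ne_of_mem_erase hα)
  rw [mul_zero] at hb
  have e1 : (term x g fun _ => (1 : ℂ)).re = 1 := by simp [term]
  simp only [Complex.add_re, Complex.div_ofNat_re]
  linarith

/-- An involution of `U` is a product of two conjugates of `f = U(1,0)` lying outside `U`. -/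
theorem exists_unipotent {b : F} (hb : b ≠ 0) :
    ∃ a : ↥(Cfsg.Sz F m), IsConj a (uG c 1 0) ∧ IsConj (a⁻¹ * uG c 0 b) (uG c 1 0) ∧ a ∉ uSub c := by
  classical
  obtain ⟨F1, F2, W, T⟩ := exists_table c
  obtain ⟨hP2, hq, hc1, hc2, one1, one2, oneW⟩ := real_facts c T
  set P : ℝ := 2 ^ m with hPdef
  set g := uG c 0 b
  have hcl : ∀ χ : IrrCharacter ↥(Cfsg.Sz F m), χ.1 g = χ.1 (uG c 0 1) := fun χ => by
    obtain ⟨k, hk⟩ := isConj_iff.1 (exists_z_conj c hb)
    rw [← hk, Char.isClassFunction_of_isIrr χ.2]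
  have hg : g ∈ uSub c := uG_mem_uSub c 0 b
  have hg1 : g ≠ 1 := fun e => hb (uG_inj c (e.trans (uG_zero c).symm)).2
  have hu := uG_mem_uSub c (1 : F) 0
  have hd1 : 0 < (2 * P ^ 2 - 1) * (2 * P ^ 2 - 2 * P + 1) := mul_pos (by nlinarith) (by nlinarith)
  have hd2 : 0 < (2 * P ^ 2 - 1) * (2 * P ^ 2 + 2 * P + 1) := mul_pos (by nlinarith) (by nlinarith)
  have hdW : 0 < (2 * P ^ 2 - 1) * P := mul_pos (by nlinarith) (by linarith)
  have hlow := sum_term_ge c T (x := uG c 1 0) (g := g) (bS := 0) (b1 := 0)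
    (b2 := (F2.card : ℝ) * (-(2 * P + 1) / ((2 * P ^ 2 - 1) * (2 * P ^ 2 + 2 * P + 1)))) (bW := 0)
    (by simp [term, stn_uG c hu (uG10_ne c)])
    (fun α _ => by
      rw [re_term (r := 1) (d := (Fintype.card F : ℝ) ^ 2 + 1) (by rw [prin_uG c α hu (uG10_ne c)]; simp)
        (by rw [prin_one]; simp), prin_uG c α hg hg1]
      simp; positivity)
    (by
      rw [Complex.re_sum]
      refine Finset.sum_nonneg fun χ hχ => ?_
      rw [re_term (r := 1) (by rw [T.f12 χ (Or.inl hχ)]; simp) (one1 χ hχ), hcl, T.z1 χ hχ, Complex.intCast_re]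
      exact div_nonneg (by push_cast; linarith) hd1.le)
    (re_sum_ge fun χ hχ => by
      rw [re_term (r := 1) (by rw [T.f12 χ (Or.inr hχ)]; simp) (one2 χ hχ), hcl, T.z2 χ hχ, Complex.intCast_re]
      push_cast [hPdef]; rw [one_mul])
    (by
      rw [Complex.re_sum]
      refine Finset.sum_nonneg fun χ hχ => ?_
      rw [re_term (r := -P ^ 2) (by
        obtain ⟨k, hk2, hk⟩ := T.fW χ hχ
        rw [hk, mul_pow, Complex.I_sq]
        have : ((k : ℂ)) ^ 2 = 1 := by exact_mod_cast hk2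
        push_cast [hPdef]
        linear_combination -((2 : ℂ) ^ m) ^ 2 * this) (oneW χ hχ), hcl, T.zW χ hχ, Complex.intCast_re]
      exact div_nonneg (by push_cast; nlinarith) hdW.le)
  by_contra hc
  push Not at hc
  have hup := sum_term_le (uSub c) hc
  have hidx : (((Subgroup.centralizer ({uG c 1 0} : Set ↥(Cfsg.Sz F m))).index : ℕ) : ℝ) * (2 * Fintype.card F) =
      Nat.card ↥(Cfsg.Sz F m) := by
    have := Subgroup.card_mul_index (Subgroup.centralizer ({uG c 1 0} : Set ↥(Cfsg.Sz F m)))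
    rw [card_cent_f c] at this
    rw [← this]; push_cast; ring
  have hcard : (Nat.card ↥(Cfsg.Sz F m) : ℝ) =
      (Fintype.card F : ℝ) ^ 2 * ((Fintype.card F : ℝ) ^ 2 + 1) * ((Fintype.card F : ℝ) - 1) := by
    rw [card_sz c, Nat.cast_mul, Nat.cast_mul, Nat.cast_sub Fintype.card_pos]
    push_cast; ring
  have h8 : (8 : ℝ) ≤ Fintype.card F := by exact_mod_cast c.eight_le
  rw [card_uSub c] at hup
  push_cast at hup
  set q : ℝ := (Fintype.card F : ℝ)
  set i : ℝ := (((Subgroup.centralizer ({uG c 1 0} : Set ↥(Cfsg.Sz F m))).index : ℕ) : ℝ) with hi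
  have e2 : -(1 / 4) ≤ (F2.card : ℝ) * -(2 * P + 1) / ((2 * P ^ 2 - 1) * (2 * P ^ 2 + 2 * P + 1)) := by
    rw [le_div_iff₀ hd2]; nlinarith
  have e3 : q ^ 2 * (Nat.card ↥(Cfsg.Sz F m) : ℝ) / i ^ 2 < 3 / 4 := by
    have hipos : 0 < i := by
      have : (Subgroup.centralizer ({uG c 1 0} : Set ↥(Cfsg.Sz F m))).index ≠ 0 :=
        Subgroup.index_ne_zero_of_finite
      rw [hi]; positivity
    rw [div_lt_iff₀ (by positivity)]
    have : i = q * (q ^ 2 + 1) * (q - 1) / 2 := by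
      rw [hcard] at hidx
      field_simp at hidx ⊢
      nlinarith [hidx]
    rw [this, hcard]
    nlinarith [sq_nonneg (q - 8), mul_nonneg (sub_nonneg.2 h8) (sub_nonneg.2 h8), pow_pos (show (0:ℝ) < q by linarith) 4]
  rw [mul_div_assoc'] at hlow
  linarith

/-- A free element is a product of two of its conjugates lying outside its centraliser. -/
theorem exists_free {x : ↥(Cfsg.Sz F m)} (hx : IsFree x) :
    ∃ a : ↥(Cfsg.Sz F m), IsConj a x ∧ IsConj (a⁻¹ * x) x ∧ a ∉ cz x := by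
  classical
  obtain ⟨F1, F2, W, T⟩ := exists_table c
  obtain ⟨hP2, hq, hc1, hc2, one1, one2, oneW⟩ := real_facts c T
  set P : ℝ := 2 ^ m with hPdef
  have hd1 : 0 < (2 * P ^ 2 - 1) * (2 * P ^ 2 - 2 * P + 1) := mul_pos (by nlinarith) (by nlinarith)
  have hd2 : 0 < (2 * P ^ 2 - 1) * (2 * P ^ 2 + 2 * P + 1) := mul_pos (by nlinarith) (by nlinarith)
  have hdW : 0 < (2 * P ^ 2 - 1) * P := mul_pos (by nlinarith) (by linarith)
  have hP : ∀ α : Fˣ →* ℂˣ, α ≠ 1 → (0 : ℝ) ≤ (term x x (prin c α)).re := fun α _ => by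
    simp [term, prin_free c α hx]
  have tS : (term x x (stn c)).re = -(1 / (Fintype.card F : ℝ) ^ 2) := by
    rw [re_term (r := 1) (d := (Fintype.card F : ℝ) ^ 2) (by rw [stn_free c hx]; simp)
      (by rw [stn_one]; simp), stn_free c hx]
    simp [neg_div]
  have hsq : ∀ χ : IrrCharacter ↥(Cfsg.Sz F m), χ.1 x ^ 2 = ((‖χ.1 x‖ ^ 2 : ℝ) : ℂ) := fun χ => by
    rw [Complex.ofReal_pow, ← Complex.mul_conj', char_free_real c hx, sq]
  have h64 : 1 / (Fintype.card F : ℝ) ^ 2 ≤ 1 / 64 := by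
    gcongr; rw [hq]; nlinarith
  have h8 : (8 : ℝ) ≤ Fintype.card F := by exact_mod_cast c.eight_le
  obtain ⟨N, hN, hlow⟩ : ∃ N : ℝ, (Nat.card (cz x) : ℝ) = N ∧
      (N ≤ 2 * Fintype.card F ∧ 1 / 5 ≤ (∑ χ : IrrCharacter ↥(Cfsg.Sz F m), term x x χ.1).re) := by
    refine ⟨_, rfl, ?_, ?_⟩
    · have e : Fintype.card F = 2 * (2 ^ m) ^ 2 := card_eq_two_sq c
      rcases card_cz_cases c hx with hN | hN
      · rw [hq, show ((Nat.card (cz x) : ℕ) : ℝ) = 2 * P ^ 2 + 2 * P + 1 by rw [hPdef]; exact_mod_cast hN]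
        nlinarith
      · rw [hq, show ((Nat.card (cz x) : ℕ) : ℝ) = 2 * P ^ 2 - 2 * P + 1 by rw [hPdef]; exact_mod_cast hN]
        nlinarith
    rcases card_cz_cases c hx with hN | hN
    · obtain ⟨x2, xW, gb, gs⟩ := T.free1 x hx hN
      obtain ⟨B, hB, hBd⟩ : ∃ B : ℝ, (∀ χ ∈ F1, ‖χ.1 x‖ ≤ B) ∧
          (2 * P ^ 2 + 2 * P - 3) * B ≤ 27 / 35 * ((2 * P ^ 2 - 1) * (2 * P ^ 2 - 2 * P + 1)) := by
        rcases (show m = 1 ∨ 2 ≤ m by have := c.hm; omega) with hm | hm
        · have hP' : P = 2 := by rw [hPdef, hm]; norm_num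
          refine ⟨3, fun χ hχ => ?_, by rw [hP']; norm_num⟩
          have := Finset.single_le_sum (f := fun χ : IrrCharacter ↥(Cfsg.Sz F m) => ‖χ.1 x‖ ^ 2)
            (fun χ _ => sq_nonneg _) hχ
          rw [gs, show (2 : ℝ) ^ m = 2 by rw [hm]; norm_num] at this
          norm_num at this
          nlinarith [norm_nonneg (χ.1 x)]
        · have hP' : (4 : ℝ) ≤ P := le_trans (by norm_num) (pow_le_pow_right₀ (by norm_num) hm)
          exact ⟨4, gb, by nlinarith [mul_nonneg (mul_nonneg (sub_nonneg.2 hP') (sub_nonneg.2 hP')) (sub_nonneg.2 hP')]⟩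
      refine le_trans ?_ (sum_term_ge c T (bS := -(1 / 64))
        (b1 := (2 * P ^ 2 + 2 * P - 3) * (-B) / ((2 * P ^ 2 - 1) * (2 * P ^ 2 - 2 * P + 1))) (b2 := 0) (bW := 0)
        (by rw [tS]; linarith) hP ?_ ?_ ?_)
      · have e5 : -(27 / 35) ≤ (2 * P ^ 2 + 2 * P - 3) * -B / ((2 * P ^ 2 - 1) * (2 * P ^ 2 - 2 * P + 1)) := by
          rw [le_div_iff₀ hd1]; nlinarith
        linarith
      · rw [← gs, Complex.re_sum, Finset.sum_mul, Finset.sum_div]
        refine Finset.sum_le_sum fun χ hχ => ?_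
        rw [re_term (hsq χ) (one1 χ hχ)]
        gcongr
        exact le_trans (neg_le_neg (hB χ hχ)) (neg_le_of_abs_le (Complex.abs_re_le_norm _))
      · rw [Complex.re_sum]
        refine Finset.sum_nonneg fun χ hχ => ?_
        simp [term, x2 χ hχ]
      · rw [Complex.re_sum]
        refine Finset.sum_nonneg fun χ hχ => ?_
        rw [re_term (hsq χ) (oneW χ hχ), xW χ hχ]
        simp
        exact mul_nonneg (inv_nonneg.2 (by linarith)) (inv_nonneg.2 (by nlinarith))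
    · obtain ⟨x1, gb, gs, xW⟩ := T.free2 x hx hN
      refine le_trans ?_ (sum_term_ge c T (bS := -(1 / 64)) (b1 := 0)
        (b2 := (2 * P ^ 2 - 2 * P - 3) * (-4) / ((2 * P ^ 2 - 1) * (2 * P ^ 2 + 2 * P + 1)))
        (bW := (W.card : ℝ) * (-1 / ((2 * P ^ 2 - 1) * P)))
        (by rw [tS]; linarith) hP ?_ ?_ (re_sum_ge fun χ hχ => ?_))
      · have e5 : -(1 / 2) ≤ (2 * P ^ 2 - 2 * P - 3) * -4 / ((2 * P ^ 2 - 1) * (2 * P ^ 2 + 2 * P + 1)) := by
          rw [le_div_iff₀ hd2]; nlinarith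
        have e6 : -(1 / 7) ≤ (W.card : ℝ) * -1 / ((2 * P ^ 2 - 1) * P) := by
          rw [T.cardW, le_div_iff₀ hdW]; push_cast; nlinarith
        rw [mul_div_assoc'] at *
        linarith
      · rw [Complex.re_sum]
        refine Finset.sum_nonneg fun χ hχ => ?_
        simp [term, x1 χ hχ]
      · rw [← gs, Complex.re_sum, Finset.sum_mul, Finset.sum_div]
        refine Finset.sum_le_sum fun χ hχ => ?_
        rw [re_term (hsq χ) (one2 χ hχ)]
        gcongr
        exact le_trans (neg_le_neg (gb χ hχ)) (neg_le_of_abs_le (Complex.abs_re_le_norm _))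
      · rw [re_term (r := 1) (by rw [xW χ hχ]; simp) (oneW χ hχ), xW χ hχ]
        simp
  by_contra hc
  push Not at hc
  have hup := sum_term_le (cz x) hc
  rw [hN] at hup
  set i : ℝ := (((Subgroup.centralizer ({x} : Set ↥(Cfsg.Sz F m))).index : ℕ) : ℝ) with hi
  have hidx : N * i = (Nat.card ↥(Cfsg.Sz F m) : ℝ) := by
    rw [← hN, hi, ← Nat.cast_mul]
    exact_mod_cast Subgroup.card_mul_index (cz x)
  have hNpos : 0 < N := by rw [← hN]; exact_mod_cast Nat.card_pos
  have hGpos : (0 : ℝ) < Nat.card ↥(Cfsg.Sz F m) := by exact_mod_cast Nat.card_pos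
  have hcard : (Nat.card ↥(Cfsg.Sz F m) : ℝ) =
      (Fintype.card F : ℝ) ^ 2 * ((Fintype.card F : ℝ) ^ 2 + 1) * ((Fintype.card F : ℝ) - 1) := by
    rw [card_sz c, Nat.cast_mul, Nat.cast_mul, Nat.cast_sub Fintype.card_pos]
    push_cast; ring
  have e3 : N * (Nat.card ↥(Cfsg.Sz F m) : ℝ) / i ^ 2 < 1 / 5 := by
    rw [show i = (Nat.card ↥(Cfsg.Sz F m) : ℝ) / N by rw [← hidx]; field_simp]
    rw [div_pow, div_div_eq_mul_div, div_lt_iff₀ (by positivity)]
    have h3 : N ^ 3 ≤ (2 * (Fintype.card F : ℝ)) ^ 3 := pow_le_pow_left₀ hNpos.le hlow.1 3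
    have h4 : 40 * (Fintype.card F : ℝ) ^ 3 < (Nat.card ↥(Cfsg.Sz F m) : ℝ) := by
      rw [hcard]
      set q : ℝ := (Fintype.card F : ℝ) with hqd
      have h5 : 40 * q < (q ^ 2 + 1) * (q - 1) := by
        nlinarith [mul_le_mul h8 (show (7 : ℝ) ≤ q - 1 by linarith) (by norm_num) (by linarith)]
      nlinarith [mul_lt_mul_of_pos_left h5 (pow_pos (show (0:ℝ) < q by linarith) 2)]
    have h5 : 5 * N ^ 3 < (Nat.card ↥(Cfsg.Sz F m) : ℝ) := by
      rw [mul_pow] at h3
      norm_num at h3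
      linarith
    linear_combination (1 / 5 : ℝ) * mul_lt_mul_of_pos_left h5 hGpos
  linarith [hlow.2]

end Cfsg.Agent.Lib.SuzBinary
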