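import Cfsg.Agent.Lib.SuzBinary.Subfield
import Cfsg.Agent.Lib.Suz.Classify.Main
import Cfsg.Agent.Lib.Suz.Facts

/-!
The binary coset actions of the Suzuki groups.
-/

set_option autoImplicit false
set_option linter.unusedSectionVars false
set_option linter.style.haveILetI false

namespace Cfsg.Agent.Lib.SuzBinary

open Cfsg Cfsg.Agent.Lib Cfsg.Agent.Lib.Suz Cfsg.Agent.Lib.Suz.Classify Cfsg.Agent.Lib.SuzChar

universe u

/-- The conclusion: trivial, or conjugate to the centre of `U`. -/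
def Good {F : Type u} [Field F] [Fintype F] [CharP F 2] {m : ℕ} (c : Ctx F m) (H : Subgroup ↥(Cfsg.Sz F m)) :
    Prop := H = ⊥ ∨ ∃ k, H = (zSub c).map (MulAut.conj k).toMonoidHom

theorem mem_center_map {G : Type*} [Group G] (U : Subgroup G) (x : G) :
    x ∈ (Subgroup.center ↥U).map U.subtype ↔ x ∈ U ∧ ∀ u ∈ U, u * x = x * u := by
  constructor
  · rintro ⟨y, hy, rfl⟩
    exact ⟨y.2, fun u hu => congrArg Subtype.val (Subgroup.mem_center_iff.1 hy ⟨u, hu⟩)⟩
  · rintro ⟨hx, h⟩
    exact ⟨⟨x, hx⟩, Subgroup.mem_center_iff.2 fun u => Subtype.ext (h u u.2), rfl⟩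

theorem center_map_map {G G' : Type*} [Group G] [Group G'] (e : G ≃* G') (U : Subgroup G) :
    (Subgroup.center ↥(U.map e.toMonoidHom)).map (U.map e.toMonoidHom).subtype =
      ((Subgroup.center ↥U).map U.subtype).map e.toMonoidHom := by
  ext y
  obtain ⟨x, rfl⟩ := e.surjective y
  rw [mem_center_map, Subgroup.mem_map_equiv, Subgroup.mem_map_equiv, e.symm_apply_apply, mem_center_map]
  refine and_congr_right fun hx => ⟨fun h u hu => e.injective ?_, fun h u hu => ?_⟩
  · rw [map_mul, map_mul]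
    exact h _ (by rw [Subgroup.mem_map_equiv, e.symm_apply_apply]; exact hu)
  · obtain ⟨v, rfl⟩ := e.surjective u
    rw [Subgroup.mem_map_equiv, e.symm_apply_apply] at hu
    rw [← map_mul, ← map_mul, h v hu]

variable {F : Type u} [Field F] [Fintype F] [CharP F 2] {m : ℕ} (c : Ctx F m)

include c

theorem center_uSub_map : (Subgroup.center ↥(uSub c)).map (uSub c).subtype = zSub c := by
  ext x
  constructor
  · rintro ⟨y, hy, rfl⟩
    exact (center_uSub c y).1 hy
  · intro hx
    exact ⟨⟨x, zSub_le_uSub c hx⟩, (center_uSub c _).2 hx, rfl⟩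

theorem good_binary {H : Subgroup ↥(Cfsg.Sz F m)} (h : Good c H) : Binary H := by
  rcases h with rfl | ⟨k, rfl⟩
  · exact binary_bot c
  · exact (binary_map_iff _).2 (binary_zSub c)

theorem two_group_fix {H : Subgroup ↥(Cfsg.Sz F m)} (hp : IsPGroup 2 H) : ∃ o : Om F m, ∀ x ∈ H, x • o = o := by
  haveI : Fact (Nat.Prime 2) := ⟨Nat.prime_two⟩
  obtain ⟨P, hP⟩ := hp.exists_le_sylow
  obtain ⟨g, hg⟩ := sylow_conj c P
  refine ⟨g • pt m none, fun x hx => ?_⟩
  have h1 : x ∈ (uSub c).map (MulAut.conj g).toMonoidHom := hg ▸ hP hx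
  rw [conjMap_mem] at h1
  have h2 := mem_bor_of_uSub c h1
  rw [mul_smul, mul_smul, inv_smul_eq_iff] at h2
  exact h2

theorem conj_fix {H : Subgroup ↥(Cfsg.Sz F m)} {M : Subgroup ↥(Cfsg.Sz F m)} (hM : M ≤ bor F m) (g : ↥(Cfsg.Sz F m))
    (hH : H ≤ M.map (MulAut.conj g).toMonoidHom) : ∀ x ∈ H, x • (g • pt (F := F) m none) = g • pt m none := by
  intro x hx
  have h1 := hH hx
  rw [conjMap_mem] at h1
  have h2 : (g⁻¹ * x * g) • pt (F := F) m none = pt m none := hM h1
  rw [mul_smul, mul_smul, inv_smul_eq_iff] at h2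
  exact h2

/-- The torus-normaliser case without fixed points. -/
theorem not_binary_normalizer {H : Subgroup ↥(Cfsg.Sz F m)} {x : ↥(Cfsg.Sz F m)} (hx : x ^ 4 ≠ 1)
    (hN : H ≤ Subgroup.normalizer (cz x : Set ↥(Cfsg.Sz F m)))
    (hfix : ∀ o : Om F m, ∃ h ∈ H, h • o ≠ o) : ¬ Binary H := by
  classical
  have hbot : H ≠ ⊥ := by
    rintro rfl
    obtain ⟨h, hh, hne⟩ := hfix (pt m none)
    rw [Subgroup.mem_bot.1 hh, one_smul] at hne
    exact hne rfl
  rcases Nat.even_or_odd (Nat.card H) with heven | hodd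
  · haveI : Fact (Nat.Prime 2) := ⟨Nat.prime_two⟩
    obtain ⟨z, hz⟩ := exists_prime_orderOf_dvd_card' (G := H) 2 (even_iff_two_dvd.1 heven)
    rw [← Subgroup.orderOf_coe] at hz
    have hzz : (z : ↥(Cfsg.Sz F m)) * z = 1 := by rw [← sq, ← hz]; exact pow_orderOf_eq_one _
    obtain ⟨k, hk⟩ := uni_conj c (pow_four_of_sq hzz)
    obtain ⟨b, hb⟩ := zSub_of_order_two c hk (by
      rw [show k⁻¹ * (z : ↥(Cfsg.Sz F m)) * k * (k⁻¹ * z * k) = k⁻¹ * (z * z) * k by group, hzz, mul_one,
        inv_mul_cancel])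
    have hb0 : b ≠ 0 := by
      intro e
      rw [e, uG_zero] at hb
      rw [show (z : ↥(Cfsg.Sz F m)) = k * (k⁻¹ * z * k) * k⁻¹ by group, hb, mul_one, mul_inv_cancel,
        orderOf_one] at hz
      norm_num at hz
    obtain ⟨r, hr⟩ := isConj_iff.1 (exists_z_conj c hb0)
    intro hB
    set u := r * k⁻¹ with hu
    refine not_binary_dihedral c (H := H.map (MulAut.conj u).toMonoidHom) (x := u * x * u⁻¹) ?_ ?_ ?_
      ((binary_map_iff _).2 hB)
    · exact conj_pow_four_ne u hx
    · rw [cz_conj, ← normalizer_map_conj]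
      exact Subgroup.map_mono hN
    · refine ⟨z, z.2, ?_⟩
      rw [← hr, ← hb, hu]
      simp [MulAut.conj_apply, mul_assoc]
  · obtain ⟨y, hy, hy4, hle⟩ := odd_subgroup c hodd hbot
    rcases semi_cases c hy4 with hf | ⟨k, l, hl, rfl⟩
    · exact not_binary_free c hf hy hle
    · exfalso
      rw [cz_conj, cz_tHom c hl] at hle
      obtain ⟨h, hh, hne⟩ := hfix (k • pt m none)
      exact hne (conj_fix c (by rintro _ ⟨s, rfl⟩; exact tHom_smul_inf c s) k hle h hh)

/-- The inductive step of the classification of binary coset actions. -/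
theorem step (IH : ∀ (K : Type) (_ : Field K) (_ : Fintype K) (_ : CharP K 2) (k : ℕ) (cK : Ctx K k), k < m →
      ∀ H : Subgroup ↥(Cfsg.Sz K k), H ≠ ⊤ → Binary H → Good cK H)
    (H : Subgroup ↥(Cfsg.Sz F m)) (hH : H ≠ ⊤) (hB : Binary H) : Good c H := by
  classical
  haveI : Fact (Nat.Prime 2) := ⟨Nat.prime_two⟩
  by_cases hfix : ∃ o : Om F m, ∀ x ∈ H, x • o = o
  · obtain ⟨o, ho⟩ := hfix
    exact binary_fix c ho hB
  exfalso
  have hfix' : ∀ o : Om F m, ∃ h ∈ H, h • o ≠ o := fun o => by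
    by_contra h
    push Not at h
    exact hfix ⟨o, h⟩
  rcases concl_main c H hH with ⟨P, hP⟩ | ⟨U, hc, hn, hU⟩ | ⟨K, iK, iK', k, h1, h2, h3, h4, S, ⟨e⟩, hS⟩
  · obtain ⟨g, hg⟩ := sylow_conj c P
    rw [hg, ← normalizer_map_conj] at hP
    exact hfix ⟨_, conj_fix c (fun x hx => (mem_normalizer_uSub_iff c x).1 hx) g hP⟩
  · obtain ⟨x, hx⟩ := (Subgroup.isCyclic_iff_exists_zpowers_eq_top U).1 hc
    set A := 2 ^ (2 * m + 1) with hA
    have hA8 : 8 ≤ A := by rw [hA, ← c.hF]; exact c.eight_le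
    have hrA : 2 ^ (m + 1) * 2 ≤ A := by
      rw [hA, ← pow_succ]; exact Nat.pow_le_pow_right (by norm_num) (by have := c.hm; omega)
    have hr4 : 4 ≤ 2 ^ (m + 1) := by
      calc 4 = 2 ^ 2 := by norm_num
        _ ≤ _ := Nat.pow_le_pow_right (by norm_num) (by have := c.hm; omega)
    have hodd1 : 2 ∣ A := dvd_pow_self 2 (by omega)
    have hodd2 : 2 ∣ 2 ^ (m + 1) := dvd_pow_self 2 (by omega)
    have hnx : Nat.card U = orderOf x := by rw [← hx, Nat.card_zpowers]
    simp only [Set.mem_insert_iff, Set.mem_singleton_iff] at hn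
    have hsq : (2 ^ (m + 1)) * (2 ^ (m + 1)) = 2 * A := by rw [hA, ← pow_add, ← pow_succ']; congr 1; omega
    have hx4 : x ^ 4 ≠ 1 := by
      intro h
      have := Nat.le_of_dvd (by norm_num) (orderOf_dvd_of_pow_eq_one h)
      rw [← hnx] at this
      rcases hn with hn | hn | hn
      · omega
      · omega
      · -- the smaller torus has order at least five
        have : 2 ^ (m + 1) * 2 ≤ A := hrA
        omega
    have hUle : U ≤ cz x := hx ▸ (Subgroup.zpowers_le.2 (mem_cz_self x))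
    have hUeq : U = cz x := by
      refine Subgroup.eq_of_le_of_card_ge hUle ?_
      obtain ⟨d, hd⟩ := Subgroup.card_dvd_of_le hUle
      have hoddc : Odd (Nat.card (cz x)) := (semi_cz c hx4).2.1
      have hn2 := card_cz_semi c hx4
      simp only [Set.mem_insert_iff, Set.mem_singleton_iff] at hn2
      rw [← hA] at hn2
      rcases Nat.lt_or_ge d 3 with hd3 | hd3
      · interval_cases d
        · exact absurd hd (Nat.card_pos.ne')
        · rw [hd, mul_one]
        · rw [hd] at hoddc; exact absurd hoddc (Nat.not_odd_iff_even.2 ⟨_, by ring⟩)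
      · exfalso
        have h3 : 3 * Nat.card U ≤ Nat.card (cz x) := by rw [hd, mul_comm 3]; exact Nat.mul_le_mul_left _ hd3
        have h5 : 4 * 2 ^ (m + 1) ≤ 2 * A := by
          rw [← hsq]; exact Nat.mul_le_mul_right _ hr4
        omega
    rw [hUeq] at hU
    exact not_binary_normalizer c hx4 hU hfix' hB
  · letI := iK
    letI := iK'
    have cK : Ctx K k := ⟨h1, h3⟩
    haveI := charP_two cK
    by_cases hHS : H = S
    · obtain ⟨ι⟩ := exists_field_hom c.hF h3 h4
      have hθ : ∀ x, ι (th K k x) = th F m (ι x) := th_compat ι h4 h3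
      let φ : ↥(Cfsg.Sz K k) →* ↥(Cfsg.Sz F m) := S.subtype.comp e.symm.toMonoidHom
      have hφ : Function.Injective φ := S.subtype_injective.comp e.symm.injective
      have hr : φ.range = S := by
        rw [MonoidHom.range_comp, MonoidHom.range_eq_top.2 e.symm.surjective, ← MonoidHom.range_eq_map,
          Subgroup.range_subtype]
      obtain ⟨g, hg⟩ := conj_of_iso c cK ι hθ φ hφ
      rw [hr, ← hHS] at hg
      refine not_binary_subfield c cK ι hθ ?_ (hg ▸ (binary_map_iff _).2 hB)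
      rw [c.hF, h3]
      exact Nat.pow_lt_pow_right (by norm_num) (by omega)
    · have hne : (H.subgroupOf S).map e.toMonoidHom ≠ ⊤ := by
        intro h
        rw [← Subgroup.map_top_of_surjective e.toMonoidHom e.surjective] at h
        exact hHS (le_antisymm hS (Subgroup.subgroupOf_eq_top.1 (Subgroup.map_injective e.injective h)))
      have hG := IH K iK iK' inferInstance k cK h2 _ hne (binary_map e (binary_subgroupOf hS hB))
      refine hfix (two_group_fix c ?_)
      intro x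
      refine ⟨1, Subtype.ext ?_⟩
      rw [pow_one, sq]
      have hmem : e ⟨x.1, hS x.2⟩ ∈ (H.subgroupOf S).map e.toMonoidHom := ⟨_, x.2, rfl⟩
      have h22 : e ⟨x.1, hS x.2⟩ * e ⟨x.1, hS x.2⟩ = 1 := by
        rcases hG with hG | ⟨g, hG⟩ <;> rw [hG] at hmem
        · rw [Subgroup.mem_bot.1 hmem, mul_one]
        · obtain ⟨_, ⟨b, rfl⟩, hb⟩ := hmem
          rw [← hb, ← map_mul, uG_sq, zero_mul, uG_zero, map_one]
      rw [← map_mul, ← map_one e] at h22
      simpa using congrArg Subtype.val (e.injective h22)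

omit c in
theorem aux : ∀ (m : ℕ) (K : Type) (_ : Field K) (_ : Fintype K) (_ : CharP K 2) (c : Ctx K m)
    (H : Subgroup ↥(Cfsg.Sz K m)), H ≠ ⊤ → Binary H → Good c H := by
  intro m
  induction m using Nat.strong_induction_on with
  | _ m ih =>
    intro K iK iK' iC c H hH hB
    exact step c (fun L iL iL' iCL k cL hk => ih k hk L iL iL' iCL cL) H hH hB

/-- The binary coset actions of the Suzuki groups. -/
theorem binary_iff (H : Subgroup ↥(Cfsg.Sz F m)) (hH : H ≠ ⊤) : Binary H ↔ Good c H :=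
  ⟨step c (fun K iK iK' iC k cK _ => aux k K iK iK' iC cK) H hH, good_binary c⟩

end Cfsg.Agent.Lib.SuzBinary
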