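import Cfsg.Agent.Lib.SuzBinary.Torus
import Cfsg.Agent.Lib.Suz.Subfield

/-!
Coset actions of the Suzuki groups at subfield subgroups.
-/

set_option autoImplicit false
set_option linter.unusedSectionVars false

namespace Cfsg.Agent.Lib.SuzBinary

open Cfsg Cfsg.Agent.Lib Cfsg.Agent.Lib.Suz Cfsg.Agent.Lib.Suz.Classify

universe u v

variable {F : Type u} [Field F] [Fintype F] [CharP F 2] {m : ℕ} (c : Ctx F m)
variable {K : Type v} [Field K] [Fintype K] [CharP K 2] {k : ℕ} (cK : Ctx K k)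
variable (ι : K →+* F) (hθ : ∀ x, ι (th K k x) = th F m (ι x))

include c cK hθ

theorem iU_val (s : Kˣ) : ((iU ι s : Fˣ) : F) = ι s := rfl

theorem emb_el (a b : K) (s : Kˣ) :
    embSz ι c cK hθ (el cK a b s) = el c (ι a) (ι b) (iU ι s) := by
  rw [el, el, map_mul, embSz_uG c cK ι hθ, embSz_tHom c cK ι hθ]

theorem nu_iU (s : Kˣ) : ((nu F m (iU ι s) : Fˣ) : F) = ι (nu K k s : K) := by
  rw [nu_val, nu_val, iU_val c cK ι hθ, map_mul, map_pow, hθ]

theorem mem_range_el {a b : F} {s : Fˣ} (h : el c a b s ∈ (embSz ι c cK hθ).range) :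
    a ∈ Set.range ι ∧ b ∈ Set.range ι ∧ ∃ r, iU ι r = s := by
  obtain ⟨g, hg⟩ := h
  rcases exists_bruhat cK g with ⟨a0, b0, s0, rfl⟩ | ⟨a0, b0, a1, b1, s0, rfl⟩
  · rw [show uG cK a0 b0 * tHom cK s0 = el cK a0 b0 s0 from rfl, emb_el c cK ι hθ] at hg
    obtain ⟨e1, e2, e3⟩ := el_inj c hg
    exact ⟨⟨a0, e1⟩, ⟨b0, e2⟩, ⟨s0, e3⟩⟩
  · rw [map_mul, map_mul, show uG cK a1 b1 * tHom cK s0 = el cK a1 b1 s0 from rfl, emb_el c cK ι hθ,
      embSz_uG c cK ι hθ, embSz_wG c cK ι hθ] at hg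
    have := congrArg (fun g : ↥(Cfsg.Sz F m) => g • pt (F := F) m none) hg
    simp only [el, mul_smul, tHom_smul_inf, uG_smul_inf, wG_smul_inf, uG_smul_zero] at this
    simpa using (pt_bij m).1 this

theorem mem_range_big {a b a' b' : F} {s : Fˣ}
    (h : uG c a b * wG c * el c a' b' s ∈ (embSz ι c cK hθ).range) :
    a ∈ Set.range ι ∧ b ∈ Set.range ι ∧ ∃ r, iU ι r = s := by
  obtain ⟨g, hg⟩ := h
  rcases exists_bruhat cK g with ⟨a0, b0, s0, rfl⟩ | ⟨a0, b0, a1, b1, s0, rfl⟩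
  · rw [show uG cK a0 b0 * tHom cK s0 = el cK a0 b0 s0 from rfl, emb_el c cK ι hθ] at hg
    have := congrArg (fun g : ↥(Cfsg.Sz F m) => g • pt (F := F) m none) hg
    simp only [el, mul_smul, tHom_smul_inf, uG_smul_inf, wG_smul_inf, uG_smul_zero] at this
    simpa using (pt_bij m).1 this
  · rw [map_mul, map_mul, show uG cK a1 b1 * tHom cK s0 = el cK a1 b1 s0 from rfl, emb_el c cK ι hθ,
      embSz_uG c cK ι hθ, embSz_wG c cK ι hθ] at hg
    have := congrArg (fun g : ↥(Cfsg.Sz F m) => g • pt (F := F) m none) hg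
    simp only [el, mul_smul, tHom_smul_inf, uG_smul_inf, wG_smul_inf, uG_smul_zero] at this
    have h1 := (pt_bij m).1 this
    simp only [Option.some.injEq, Prod.mk.injEq] at h1
    exact ⟨⟨a0, h1.1⟩, ⟨b0, h1.2⟩, ⟨s0, bruhat_torus c hg⟩⟩

/-- The coset action at a proper subfield subgroup is not binary. -/
theorem not_binary_subfield (hlt : Fintype.card K < Fintype.card F) :
    ¬ Binary (embSz ι c cK hθ).range := by
  classical
  set H := (embSz ι c cK hθ).range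
  obtain ⟨ν, hν⟩ : ∃ ν : F, ν ∉ Set.range ι := by
    by_contra h
    push Not at h
    exact absurd (Fintype.card_le_of_surjective ι h) (not_le.2 hlt)
  have hν0 : ν ≠ 0 := fun e => hν ⟨0, by rw [e, map_zero]⟩
  have hν2 : 1 + ν ≠ 0 := fun e => hν ⟨1, by rw [map_one]; exact CharTwo.add_eq_zero.1 e⟩
  obtain ⟨l, hl⟩ := nu_surj c (Units.mk0 ν hν0)
  obtain ⟨μ, hμ⟩ := nu_surj c (Units.mk0 (1 + ν) hν2)
  have hlr : (l : F) ∉ Set.range ι := by
    rintro ⟨r, hr⟩
    refine hν ⟨r ^ 2 * th K k r, ?_⟩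
    rw [map_mul, map_pow, hθ, hr, ← nu_val, hl, Units.val_mk0]
  have ht : uG c 0 1 ∈ H := ⟨uG cK 0 1, by rw [embSz_uG c cK ι hθ, map_zero, map_one]⟩
  have hconj : ∀ (r : Fˣ) (a b : F) (s : Fˣ), (tHom c r)⁻¹ * el c a b s * tHom c r =
      el c (th F m (r⁻¹ : Fˣ) * a) ((nu F m r⁻¹ : F) * b) s := by
    intro r a b s
    rw [← map_inv, el, ← mul_assoc, tHom_mul_uG, el, nu_val, mul_assoc, ← map_mul, mul_assoc, ← map_mul,
      show r⁻¹ * (s * r) = s by rw [mul_comm s r, inv_mul_cancel_left]]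
  refine not_binary_of_witness (h := uG c 0 1) (x := tHom c l) (z := tHom c μ) (a := uG c 0 ν) ht ?_ ?_ ?_
  · rw [← el_uG c, hconj, mul_zero, map_inv, hl, Units.val_inv_eq_inv_val, Units.val_mk0, inv_mul_cancel₀ hν0,
      el_uG]
    exact ht
  · rw [show (uG c 0 ν)⁻¹ * uG c 0 1 = uG c 0 (1 + ν) by rw [uG_inv, uG_mul]; simp [add_comm],
      ← el_uG c, hconj, mul_zero, map_inv, hμ, Units.val_inv_eq_inv_val, Units.val_mk0, inv_mul_cancel₀ hν2,
      el_uG]
    exact ht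
  intro x hx hxx hxz
  obtain ⟨g, rfl⟩ := hx
  rcases exists_bruhat cK g with ⟨a, b, s, rfl⟩ | ⟨a, b, a', b', s, rfl⟩
  · rw [show uG cK a b * tHom cK s = el cK a b s from rfl, emb_el c cK ι hθ] at hxx hxz
    rw [hconj] at hxx
    obtain ⟨⟨a2, ha2⟩, ⟨b2, hb2⟩, -⟩ := mem_range_el c cK ι hθ hxx
    rw [map_inv, hl, Units.val_inv_eq_inv_val, Units.val_mk0] at hb2
    have hb : b = 0 := by
      by_contra hb
      have hb' : ι b ≠ 0 := (map_ne_zero ι).2 hb
      refine hν ⟨b / b2, ?_⟩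
      rw [map_div₀, hb2]
      field_simp
    have ha : a = 0 := by
      by_contra ha
      have ha' : ι a ≠ 0 := (map_ne_zero ι).2 ha
      have hsq := c.tits (l : F)
      have hθl : th F m (l : F) = ι (a / a2) := by
        rw [map_div₀, ha2, Units.val_inv_eq_inv_val, map_inv₀]
        have : th F m (l : F) ≠ 0 := (map_ne_zero _).2 l.ne_zero
        field_simp
      refine hν ⟨th K k (a / a2) * (a / a2), ?_⟩
      rw [map_mul, hθ, ← hθl, hsq, ← nu_val, hl, Units.val_mk0]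
    subst ha hb
    rw [map_zero, el_inv, map_zero, mul_zero, ← el_uG c (0 : F) 1, el_mul, hconj] at hxz
    simp only [mul_zero, add_zero, zero_add, map_zero, mul_one] at hxz
    obtain ⟨-, ⟨y, hy⟩, -⟩ := mem_range_el c cK ι hθ hxz
    rw [map_inv (nu F m) μ, hμ, Units.val_inv_eq_inv_val, Units.val_mk0, ← map_inv (iU ι), nu_iU c cK ι hθ] at hy
    refine hν ⟨1 + (nu K k s⁻¹ : K) / y, ?_⟩
    have hyne : ι y ≠ 0 := by
      rw [hy]
      exact mul_ne_zero (inv_ne_zero hν2) ((map_ne_zero ι).2 (Units.ne_zero _))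
    have key : ι ((nu K k s⁻¹ : Kˣ) : K) = (1 + ν) * ι y := by
      rw [hy, mul_inv_cancel_left₀ hν2]
    rw [map_add, map_one, map_div₀, key, mul_div_cancel_right₀ _ hyne, ← add_assoc, add_self0, zero_add]
  · rw [map_mul, map_mul, show uG cK a' b' * tHom cK s = el cK a' b' s from rfl, emb_el c cK ι hθ,
      embSz_uG c cK ι hθ, embSz_wG c cK ι hθ] at hxx
    have hwx : (tHom c l)⁻¹ * (uG c (ι a) (ι b) * wG c * el c (ι a') (ι b') (iU ι s)) * tHom c l =
        uG c (th F m (l⁻¹ : Fˣ) * ι a) ((nu F m l⁻¹ : F) * ι b) * wG c *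
          el c (th F m l * ι a') ((nu F m l : F) * ι b') (l * iU ι s * l) := by
      rw [nu_val, nu_val, el, el, map_mul, map_mul, ← tHom_conj_uG, ← tHom_conj_uG, map_inv]
      have hwt : wG c * tHom c l = (tHom c l)⁻¹ * wG c := by
        rw [← map_inv, ← wG_conj_tHom, mul_assoc, wG_mul_self, mul_one]
      calc _ = ((tHom c l)⁻¹ * uG c (ι a) (ι b) * tHom c l) * ((tHom c l)⁻¹ * wG c) *
            (uG c (ι a') (ι b') * tHom c (iU ι s) * tHom c l) := by group
        _ = ((tHom c l)⁻¹ * uG c (ι a) (ι b) * tHom c l) * (wG c * tHom c l) *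
            (uG c (ι a') (ι b') * tHom c (iU ι s) * tHom c l) := by rw [hwt]
        _ = _ := by group
    rw [hwx] at hxx
    obtain ⟨-, -, r, hr⟩ := mem_range_big c cK ι hθ hxx
    -- the square of `l` is rational, so `l` is
    have hl2 : (l : F) ^ 2 ∈ Set.range ι := by
      refine ⟨(r : K) / s, ?_⟩
      have := congrArg Units.val hr
      rw [Units.val_mul, Units.val_mul, iU_val c cK ι hθ, iU_val c cK ι hθ] at this
      rw [map_div₀, this]
      have hs0 : ι (s : K) ≠ 0 := (map_ne_zero ι).2 s.ne_zero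
      field_simp
    obtain ⟨y, hy⟩ := hl2
    obtain ⟨j, hj⟩ := even_card c
    refine hlr ⟨y ^ j, ?_⟩
    rw [map_pow, hy, ← pow_mul, ← hj, FiniteField.pow_card]

end Cfsg.Agent.Lib.SuzBinary
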