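import Cfsg.Agent.Lib.SuzBinary.Borel

/-!
Coset actions of the Suzuki groups at subgroups normalising a cyclic torus.
-/

set_option autoImplicit false
set_option linter.unusedSectionVars false
set_option linter.style.haveILetI false

namespace Cfsg.Agent.Lib.SuzBinary

open Cfsg Cfsg.Agent.Lib Cfsg.Agent.Lib.Suz Cfsg.Agent.Lib.Suz.Classify Cfsg.Agent.Lib.SuzChar

universe u

variable {F : Type u} [Field F] [Fintype F] [CharP F 2] {m : ℕ} (c : Ctx F m)

include c

theorem card_semi_le {x : ↥(Cfsg.Sz F m)} (hx : x ^ 4 ≠ 1) : Nat.card (cz x) ≤ 2 * Fintype.card F := by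
  have h := card_cz_semi c hx
  have h2 : 2 ^ (m + 1) + 1 ≤ 2 ^ (2 * m + 1) := by
    have h3 : 2 ^ (m + 1) * 2 ≤ 2 ^ (2 * m + 1) := by
      rw [← pow_succ]; exact Nat.pow_le_pow_right (by norm_num) (by have := c.hm; omega)
    have h4 : 1 ≤ 2 ^ (m + 1) := Nat.one_le_pow _ _ (by norm_num)
    omega
  rw [c.hF]
  simp only [Set.mem_insert_iff, Set.mem_singleton_iff] at h
  generalize hA : 2 ^ (2 * m + 1) = A at h h2 ⊢
  generalize hB : 2 ^ (m + 1) = B at h h2 ⊢
  omega

/-- Two commuting involutions do not normalise a torus. -/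
theorem no_four {x s t : ↥(Cfsg.Sz F m)} (hx : x ^ 4 ≠ 1) (hs : orderOf s = 2) (ht : orderOf t = 2)
    (hsN : s ∈ Subgroup.normalizer (cz x : Set ↥(Cfsg.Sz F m)))
    (htN : t ∈ Subgroup.normalizer (cz x : Set ↥(Cfsg.Sz F m))) (hc : s * t = t * s) : s = t := by
  by_contra hne
  have hss : s * s = 1 := by rw [← sq, ← hs]; exact pow_orderOf_eq_one s
  have htt : t * t = 1 := by rw [← sq, ← ht]; exact pow_orderOf_eq_one t
  have e : s * t * x * (s * t)⁻¹ = x := by
    rw [show s * t * x * (s * t)⁻¹ = s * (t * x * t⁻¹) * s⁻¹ by group, inverts c hx ht htN (mem_cz_self x),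
      inverts c hx hs hsN (inv_mem (mem_cz_self x)), inv_inv]
  have h1 : orderOf (s * t) = 2 := by
    apply orderOf_eq_prime
    · rw [sq]
      nth_rw 2 [hc]
      rw [show s * t * (t * s) = s * (t * t) * s by group, htt, mul_one, hss]
    · exact fun h => hne (by rw [eq_inv_of_mul_eq_one_left h, inv_eq_of_mul_eq_one_right htt])
  exact not_two_fixed c h1 hx (Subgroup.mem_centralizer_singleton_iff.2 (mul_inv_eq_iff_eq_mul.1 e))

/-- The product of two involutions normalising a torus lies in it. -/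
theorem inv_mul_mem {x s t : ↥(Cfsg.Sz F m)} (hx : x ^ 4 ≠ 1) (hs : orderOf s = 2) (ht : orderOf t = 2)
    (hsN : s ∈ Subgroup.normalizer (cz x : Set ↥(Cfsg.Sz F m)))
    (htN : t ∈ Subgroup.normalizer (cz x : Set ↥(Cfsg.Sz F m))) : s * t ∈ cz x := by
  rw [Subgroup.mem_centralizer_singleton_iff]
  apply mul_inv_eq_iff_eq_mul.1
  rw [show s * t * x * (s * t)⁻¹ = s * (t * x * t⁻¹) * s⁻¹ by group, inverts c hx ht htN (mem_cz_self x),
      inverts c hx hs hsN (inv_mem (mem_cz_self x)), inv_inv]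

/-- Elements of odd order in the normaliser lie in the torus. -/
theorem odd_mem_cz {x e : ↥(Cfsg.Sz F m)} (hx : x ^ 4 ≠ 1)
    (he : e ∈ Subgroup.normalizer (cz x : Set ↥(Cfsg.Sz F m))) (ho : Odd (orderOf e)) : e ∈ cz x := by
  set N := Subgroup.normalizer (cz x : Set ↥(Cfsg.Sz F m))
  let C := (cz x).subgroupOf N
  haveI : C.Normal := Subgroup.normal_in_normalizer
  have h4 : e ^ 4 ∈ cz x := by
    have h1 := Subgroup.pow_index_mem C ⟨e, he⟩
    have hmul := C.card_mul_index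
    rw [Nat.card_congr (Subgroup.subgroupOfEquivOfLe (Subgroup.le_normalizer (H := cz x))).toEquiv] at hmul
    have hpos : 0 < Nat.card (cz x) := Nat.card_pos
    rcases semi_normalizer c hx with ⟨-, h⟩ | ⟨-, h⟩
    · have : C.index = 4 := Nat.eq_of_mul_eq_mul_left hpos (by rw [hmul, h, mul_comm])
      rw [this, Subgroup.mem_subgroupOf] at h1
      exact h1
    · have : C.index = 2 := Nat.eq_of_mul_eq_mul_left hpos (by rw [hmul, h, mul_comm])
      rw [this, Subgroup.mem_subgroupOf] at h1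
      have := pow_mem h1 2
      rwa [Subgroup.coe_pow, ← pow_mul] at this
  obtain ⟨k, hk⟩ := exists_pow_eq_self_of_coprime
    (show Nat.Coprime 4 (orderOf e) from Nat.Coprime.pow_left 2 (Nat.coprime_two_left.2 ho))
  exact hk ▸ pow_mem h4 k

omit c in
theorem el_conj_z (c : Ctx F m) (a b v : F) (s : Fˣ) :
    el c a b s * uG c 0 v * (el c a b s)⁻¹ = uG c 0 (nu F m s * v) := by
  have hc : ∀ w, uG c a b * uG c 0 w = uG c 0 w * uG c a b := fun w => by
    rw [uG_mul, uG_mul]; simp [add_comm]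
  rw [el, show uG c a b * tHom c s * uG c 0 v * (uG c a b * tHom c s)⁻¹ =
    uG c a b * (tHom c s * uG c 0 v * (tHom c s)⁻¹) * (uG c a b)⁻¹ by group, tHom_conj_uG, mul_zero, hc,
    mul_inv_cancel_right, nu_val]

/-- A subgroup of a torus normaliser containing the base involution gives a non-binary action. -/
theorem not_binary_dihedral {H : Subgroup ↥(Cfsg.Sz F m)} {x : ↥(Cfsg.Sz F m)} (hx : x ^ 4 ≠ 1)
    (hN : H ≤ Subgroup.normalizer (cz x : Set ↥(Cfsg.Sz F m))) (ht : uG c 0 1 ∈ H) : ¬ Binary H := by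
  classical
  haveI : Fintype ↥(Cfsg.Sz F m) := Fintype.ofFinite _
  set t := uG c 0 1 with htdef
  have ht2 : orderOf t = 2 := orderOf_eq_prime (by rw [sq, htdef, uG_sq, zero_mul, uG_zero]) (z0_ne c)
  have hz2 : ∀ v : F, v ≠ 0 → orderOf (uG c 0 v) = 2 := fun v hv =>
    orderOf_eq_prime (by rw [sq, uG_sq, zero_mul, uG_zero]) fun e => hv (uG_inj c (e.trans (uG_zero c).symm)).2
  have hzt : ∀ v : F, uG c 0 v ∈ Subgroup.normalizer (cz x : Set ↥(Cfsg.Sz F m)) → v ≠ 0 → v = 1 := by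
    intro v hv hv0
    have := no_four c hx (hz2 v hv0) ht2 hv (hN ht) (by rw [htdef, uG_mul, uG_mul]; simp [add_comm])
    exact (uG_inj c this).2
  set I : Finset ↥(Cfsg.Sz F m) := Finset.univ.filter fun s => s ∈ H ∧ orderOf s = 2 ∧ s ≠ t with hI
  have hIcard : I.card ≤ 2 * Fintype.card F := by
    refine le_trans ?_ (card_semi_le c hx)
    rw [← Nat.card_eq_finsetCard]
    refine Nat.card_le_card_of_injective (fun s : ↥I => (⟨s.1 * t, ?_⟩ : cz x))
      fun a b e => Subtype.ext (mul_right_cancel (congrArg Subtype.val e))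
    obtain ⟨-, hs, hs2, -⟩ := Finset.mem_filter.1 s.2
    exact inv_mul_mem c hx hs2 ht2 (hN hs) (hN ht)
  obtain ⟨a, b, l, hl1, hgood⟩ : ∃ a b l, l ≠ (1 : Fˣ) ∧
      ∀ s ∈ I, ∀ s' ∈ I, el c a b l * s' * (el c a b l)⁻¹ ≠ s := by
    by_contra hcon
    push Not at hcon
    have hbad : ∀ p : F × F × {l : Fˣ // l ≠ 1}, ∃ r : ↥I × ↥I,
        el c p.1 p.2.1 p.2.2.1 * r.2.1 * (el c p.1 p.2.1 p.2.2.1)⁻¹ = r.1.1 := fun p => by
      obtain ⟨s, hs, s', hs', e⟩ := hcon p.1 p.2.1 p.2.2.1 p.2.2.2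
      exact ⟨(⟨s, hs⟩, ⟨s', hs'⟩), e⟩
    choose f hf using hbad
    have hinj : Function.Injective f := by
      rintro ⟨a1, b1, l1, h1⟩ ⟨a2, b2, l2, h2⟩ e
      set g1 := el c a1 b1 l1 with hg1d
      set g2 := el c a2 b2 l2 with hg2d
      set r := f (a1, b1, ⟨l1, h1⟩) with hr
      have e1 : g1 * r.2.1 * g1⁻¹ = r.1.1 := hf (a1, b1, ⟨l1, h1⟩)
      have e2 : g2 * r.2.1 * g2⁻¹ = r.1.1 := by
        have := hf (a2, b2, ⟨l2, h2⟩)
        rwa [← e] at this
      obtain ⟨-, hs, hs2, hst⟩ := Finset.mem_filter.1 r.2.2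
      set s := r.2.1
      set h := g2⁻¹ * g1 with hh
      have hcomm : h * s = s * h := by
        have : g1 * s * g1⁻¹ = g2 * s * g2⁻¹ := e1.trans e2.symm
        calc h * s = g2⁻¹ * (g1 * s * g1⁻¹) * g1 := by rw [hh]; group
          _ = s * h := by rw [this, hh]; group
      have hs1 : s ≠ 1 := fun e => by rw [e, orderOf_one] at hs2; norm_num at hs2
      have hss : s * s = 1 := by rw [← sq, ← hs2]; exact pow_orderOf_eq_one s
      have hgfix : ∀ a b l, el c a b l • pt (F := F) m none = pt m none := fun a b l =>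
        (fix_inf_iff c _).2 ⟨a, b, l, rfl⟩
      have hhinf : h • pt (F := F) m none = pt m none := by
        rw [hh, mul_smul, hg1d, hgfix, inv_smul_eq_iff, hg2d, hgfix]
      obtain ⟨o, ho, huniq⟩ := uni_fix c (pow_four_of_sq hss) hs1
      have hone : o ≠ pt (F := F) m none := by
        intro eo
        have hsU := uni_mem_uSub c (pow_four_of_sq hss) (eo ▸ ho)
        obtain ⟨v, hv⟩ := zSub_of_order_two c hsU hss
        refine hst ?_
        rw [hv, htdef, hzt v (hv ▸ hN hs) fun e => hs1 (by rw [hv, e, uG_zero])]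
      have hho : h • o = o := huniq _ (by rw [← mul_smul, ← hcomm, mul_smul, ho])
      have hh3 : h • s • pt (F := F) m none = s • pt m none := by rw [← mul_smul, hcomm, mul_smul, hhinf]
      have h1' : h = 1 := by
        refine eq_one_of_fix3 c (x := pt m none) (y := o) (z := s • pt m none) (Ne.symm hone) ?_ ?_ hhinf hho hh3
        · intro e3
          exact hone (MulAction.injective s (ho.trans e3))
        · intro e3
          exact hone (huniq _ e3.symm).symm
      obtain ⟨ra, rb, rl⟩ := el_inj c (inv_mul_eq_one.1 h1')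
      subst ra; subst rb; subst rl
      rfl
    have hle := Nat.card_le_card_of_injective f hinj
    simp only [Nat.card_eq_fintype_card, Fintype.card_prod, Fintype.card_coe,
      Fintype.card_subtype_compl, Fintype.card_subtype_eq, Fintype.card_units] at hle
    have h8 := c.eight_le
    have h9 := Nat.mul_le_mul hIcard hIcard
    obtain ⟨j, hj⟩ : ∃ j, Fintype.card F = j + 8 := ⟨_, (Nat.sub_add_cancel h8).symm⟩
    rw [hj] at hle h9
    have : j + 8 - 1 - 1 = j + 6 := by omega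
    rw [this] at hle
    nlinarith
  set g := el c a b l with hg
  set ν : F := (nu F m l : F) with hν
  have hν1 : ν ≠ 1 := by rw [hν, nu_val]; exact (sq_mul_theta_ne c l hl1).2
  have hν0 : ν ≠ 0 := (nu F m l).ne_zero
  have hν2 : 1 + ν ≠ 0 := fun e => hν1 (CharTwo.add_eq_zero.1 e).symm
  obtain ⟨μ, hμ⟩ := nu_surj c (Units.mk0 (1 + ν) hν2)
  have hga : g * t * g⁻¹ = uG c 0 ν := by rw [hg, htdef, el_conj_z, mul_one]
  have hgν : uG c 0 ν ∈ H → False := fun h => hν1 (hzt ν (hN h) hν0)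
  refine not_binary_of_witness (h := t) (x := g) (z := tHom c μ) (a := uG c 0 ν) ht ?_ ?_ ?_
  · rw [← hga]; convert ht using 1; group
  · convert ht using 1
    rw [show (uG c 0 ν)⁻¹ * t = uG c 0 (ν + 1) by rw [htdef, uG_inv, uG_mul]; simp, htdef,
      show (tHom c μ)⁻¹ = tHom c μ⁻¹ from (map_inv _ _).symm]
    nth_rw 2 [← inv_inv μ]
    rw [map_inv (tHom c) μ⁻¹, tHom_conj_uG, mul_zero, ← nu_val, map_inv, hμ]
    simp [add_comm ν, hν2]
  intro k hk hx' hz'
  by_cases hk1 : k = 1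
  · subst hk1
    rw [inv_one, one_mul, show (tHom c μ)⁻¹ = tHom c μ⁻¹ from (map_inv _ _).symm] at hz'
    nth_rw 2 [← inv_inv μ] at hz'
    rw [map_inv (tHom c) μ⁻¹, htdef, tHom_conj_uG, mul_zero, mul_one, ← nu_val, map_inv, hμ,
      Units.val_inv_eq_inv_val, Units.val_mk0] at hz'
    have := inv_eq_one.1 (hzt _ (hN hz') (inv_ne_zero hν2))
    exact hν0 (by linear_combination this)
  set n := orderOf k with hn
  have hn1 : n ≠ 1 := fun e => hk1 (orderOf_eq_one_iff.1 e)
  have hn0 : orderOf k ≠ 0 := (orderOf_pos k).ne'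
  set p := n.minFac with hp
  have hpp : p.Prime := Nat.minFac_prime hn1
  set e := k ^ (n / p) with he
  have heo : orderOf e = p := orderOf_pow_orderOf_div hn0 (Nat.minFac_dvd n)
  have heH : e ∈ H := pow_mem hk _
  have hgeH : g⁻¹ * e * g ∈ H := by
    have := pow_mem hx' (n / p)
    rwa [show g⁻¹ * k * g = g⁻¹ * k * (g⁻¹)⁻¹ by rw [inv_inv], conj_pow, inv_inv, ← he] at this
  have hgeo : orderOf (g⁻¹ * e * g) = p := by
    rw [← heo, show g⁻¹ * e * g = (MulAut.conj g⁻¹) e by simp [MulAut.conj_apply]]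
    exact MulEquiv.orderOf_eq _ e
  rcases hpp.eq_two_or_odd' with h2 | hodd
  · -- an involution
    rw [h2] at heo hgeo
    by_cases het : e = t
    · have h3 : g⁻¹ * t * g ∈ H := het ▸ hgeH
      have e4 : g⁻¹ * t * g = uG c 0 ((nu F m l⁻¹ : Fˣ) : F) := by
        rw [hg, el_inv, show el c a b l = (el c (th F m ((l⁻¹ : Fˣ) : F) * a)
          ((nu F m l⁻¹ : Fˣ) * (b + a * th F m a)) l⁻¹)⁻¹ by rw [← el_inv, inv_inv], htdef, el_conj_z, mul_one]
      rw [e4] at h3
      have := hzt _ (hN h3) (Units.ne_zero _)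
      rw [map_inv, Units.val_inv_eq_inv_val, inv_eq_one] at this
      exact hν1 this
    by_cases het' : g⁻¹ * e * g = t
    · refine hgν ?_
      rw [← hga, ← het']
      convert heH using 1
      group
    exact hgood e (Finset.mem_filter.2 ⟨Finset.mem_univ _, heH, heo, het⟩) (g⁻¹ * e * g)
      (Finset.mem_filter.2 ⟨Finset.mem_univ _, hgeH, hgeo, het'⟩) (by group)
  · -- an element of odd order
    have he1 : e ∈ cz x := odd_mem_cz c hx (hN heH) (heo ▸ hodd)
    have he2 : g⁻¹ * e * g ∈ cz x := odd_mem_cz c hx (hN hgeH) (hgeo ▸ hodd)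
    have hene : e ≠ 1 := fun h => by rw [h, orderOf_one] at heo; exact hpp.one_lt.ne heo
    have hgN := inv_mem ((mem_normalizer_cz_iff c hx he1 hene).1 (show g⁻¹ * e * g⁻¹⁻¹ ∈ cz x by rwa [inv_inv]))
    rw [inv_inv] at hgN
    exact hν1 (hzt ν (hga ▸ mul_mem (mul_mem hgN (hN ht)) (inv_mem hgN)) hν0)

/-- A subgroup of odd order without fixed points gives a non-binary action. -/
theorem not_binary_free {H : Subgroup ↥(Cfsg.Sz F m)} {x : ↥(Cfsg.Sz F m)} (hx : IsFree x) (hxH : x ∈ H)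
    (hH : H ≤ cz x) : ¬ Binary H := by
  classical
  haveI : Fintype ↥(Cfsg.Sz F m) := Fintype.ofFinite _
  obtain ⟨a, ha, hb, hac⟩ := exists_free c hx
  obtain ⟨g, hg⟩ := isConj_iff.1 ha.symm
  obtain ⟨g', hg'⟩ := isConj_iff.1 hb.symm
  have hmove : ∀ (r y w : ↥(Cfsg.Sz F m)), r * x * r⁻¹ = y → w ∈ cz x → w ≠ 1 → r⁻¹ * w * r ∈ cz x →
      y ∈ cz x := by
    intro r y w hy hw hw1 hrw
    have h1 : cz w = cz x := cz_eq_of_mem c hx hw hw1
    have h2 : cz (r⁻¹ * w * r) = cz x :=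
      cz_eq_of_mem c hx hrw fun e => hw1 (conj_eq_one_iff.1 (show r⁻¹ * w * r⁻¹⁻¹ = 1 by rwa [inv_inv]))
    have h3 : x ∈ cz (r⁻¹ * w * r) := h2 ▸ mem_cz_self x
    rw [Subgroup.mem_centralizer_singleton_iff] at h3
    rw [← h1, Subgroup.mem_centralizer_singleton_iff, ← hy]
    calc r * x * r⁻¹ * w = r * (x * (r⁻¹ * w * r)) * r⁻¹ := by group
      _ = w * (r * x * r⁻¹) := by rw [h3]; group
  refine not_binary_of_witness (h := x) (x := g) (z := g') (a := a) hxH ?_ ?_ ?_
  · rw [← hg]; simpa [mul_assoc] using hxH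
  · rw [← hg']; simpa [mul_assoc] using hxH
  intro k hk hkx hkz
  by_cases hk1 : k = 1
  · subst hk1
    rw [inv_one, one_mul] at hkz
    have h := hmove g' _ x hg' (mem_cz_self x) (isFree_ne_one hx) (hH hkz)
    have h2 := mul_mem (mem_cz_self x) (inv_mem h)
    refine hac ?_
    rw [mul_inv_rev, inv_inv, mul_inv_cancel_left] at h2
    exact h2
  · exact hac (hmove g a k hg (hH hk) hk1 (hH hkx))

end Cfsg.Agent.Lib.SuzBinary
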